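import Mathlib

/-!
# Coordinates on an elementary abelian group of order `p²`

`exists_coords`: for an elementary abelian group `V` of order `p ^ 2` generated by `x₁, x₂`
there are additive coordinates `c : V → (Fin 2 → ZMod p)` with `c x₁ = e₀`, `c x₂ = e₁` and an
isomorphism `Θ : MulAut V ≃ GL₂(p)` compatible with the coordinates.
-/

set_option autoImplicit false

namespace Cfsg.Agent.Lib.Helper89.RV

open Matrix

theorem exists_coords_aux {p : ℕ} [Fact p.Prime] {A : Type*} [CommGroup A] [Finite A]
    [Module (ZMod p) (Additive A)] (hcard : Nat.card A = p ^ 2)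
    (x₁ x₂ : A) (hx₁ : x₁ ≠ 1) (hx₂ : x₂ ∉ Subgroup.zpowers x₁) :
    ∃ (c : A → (Fin 2 → ZMod p)) (Θ : MulAut A →* GL (Fin 2) (ZMod p)),
      Function.Bijective c ∧ (∀ x y, c (x * y) = c x + c y) ∧
      c x₁ = ![1, 0] ∧ c x₂ = ![0, 1] ∧
      (∀ (φ : MulAut A) (x : A), c (φ x) = (Θ φ : Matrix (Fin 2) (Fin 2) (ZMod p)) *ᵥ c x) ∧
      Function.Bijective Θ := by
  classical
  have : Finite (Additive A) := ‹Finite A›
  have : Module.Finite (ZMod p) (Additive A) := Module.Finite.of_finite
  have hfr : Module.finrank (ZMod p) (Additive A) = 2 := by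
    have h1 := Module.natCard_eq_pow_finrank (K := ZMod p) (V := Additive A)
    have h2 : Nat.card (Additive A) = p ^ 2 := hcard
    rw [h2, Nat.card_zmod] at h1
    exact (Nat.pow_right_injective (Fact.out : p.Prime).two_le h1).symm
  -- scalar multiplication is a power
  have hsmul : ∀ (k : ZMod p) (a : A), k • Additive.ofMul a = Additive.ofMul (a ^ k.val) := by
    intro k a
    have : (k : ZMod p) = ((k.val : ℕ) : ZMod p) := (ZMod.natCast_zmod_val k).symm
    rw [this, Nat.cast_smul_eq_nsmul]
    simp
  have hli : LinearIndependent (ZMod p) ![Additive.ofMul x₁, Additive.ofMul x₂] := by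
    rw [LinearIndependent.pair_iff]
    intro s t hst
    have ht : t = 0 := by
      by_contra ht
      apply hx₂
      have h1 : t • Additive.ofMul x₂ = (-s) • Additive.ofMul x₁ := by
        rw [neg_smul]
        exact eq_neg_of_add_eq_zero_right hst
      have h2 : Additive.ofMul x₂ = (t⁻¹ * -s) • Additive.ofMul x₁ := by
        rw [mul_smul, ← h1, smul_smul, inv_mul_cancel₀ ht, one_smul]
      rw [hsmul] at h2
      have h3 : x₂ = x₁ ^ (t⁻¹ * -s).val := Additive.ofMul.injective h2
      rw [h3]
      exact Subgroup.pow_mem _ (Subgroup.mem_zpowers x₁) _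
    refine ⟨?_, ht⟩
    rw [ht, zero_smul, add_zero] at hst
    rcases smul_eq_zero.1 hst with h | h
    · exact h
    · exfalso
      apply hx₁
      exact Additive.ofMul.injective h
  let b : Module.Basis (Fin 2) (ZMod p) (Additive A) :=
    basisOfLinearIndependentOfCardEqFinrank hli (by rw [hfr, Fintype.card_fin])
  have hb : ⇑b = ![Additive.ofMul x₁, Additive.ofMul x₂] :=
    coe_basisOfLinearIndependentOfCardEqFinrank hli _
  let ψ₀ : MulAut A →* Module.End (ZMod p) (Additive A) :=
    { toFun := fun f => (MonoidHom.toAdditive f.toMonoidHom).toZModLinearMap p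
      map_one' := by
        refine LinearMap.ext fun v => ?_
        rfl
      map_mul' := fun f g => by
        refine LinearMap.ext fun v => ?_
        rfl }
  have hψ₀ : Function.Injective ψ₀ := by
    intro f g hfg
    ext a
    have := congrArg (fun L : Module.End (ZMod p) (Additive A) =>
      (DFunLike.coe L (Additive.ofMul a)).toMul) hfg
    exact this
  let m : Module.End (ZMod p) (Additive A) →* Matrix (Fin 2) (Fin 2) (ZMod p) :=
    (LinearMap.toMatrixAlgEquiv b).toAlgHom.toRingHom.toMonoidHom
  have hm : Function.Injective m := (LinearMap.toMatrixAlgEquiv b).injective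
  let Θ : MulAut A →* GL (Fin 2) (ZMod p) :=
    (Units.map (m.comp ψ₀)).comp (toUnits : MulAut A ≃* (MulAut A)ˣ).toMonoidHom
  have hΘ : ∀ φ : MulAut A, ((Θ φ : GL (Fin 2) (ZMod p)) : Matrix (Fin 2) (Fin 2) (ZMod p))
      = LinearMap.toMatrixAlgEquiv b (ψ₀ φ) := fun φ => rfl
  refine ⟨fun x => b.equivFun (Additive.ofMul x), Θ, ?_, ?_, ?_, ?_, ?_, ?_⟩
  · exact b.equivFun.bijective.comp Additive.ofMul.bijective
  · intro x y
    show b.equivFun (Additive.ofMul (x * y)) = _
    rw [ofMul_mul, map_add]
  · show b.equivFun (Additive.ofMul x₁) = _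
    have : Additive.ofMul x₁ = b 0 := by rw [hb]; rfl
    rw [this]
    funext i
    rw [Module.Basis.equivFun_self]
    fin_cases i <;> simp
  · show b.equivFun (Additive.ofMul x₂) = _
    have : Additive.ofMul x₂ = b 1 := by rw [hb]; rfl
    rw [this]
    funext i
    rw [Module.Basis.equivFun_self]
    fin_cases i <;> simp
  · intro φ x
    show b.equivFun (Additive.ofMul (φ x)) = _
    rw [hΘ]
    have h1 := LinearMap.toMatrix_mulVec_repr b b (ψ₀ φ) (Additive.ofMul x)
    have h2 : (ψ₀ φ) (Additive.ofMul x) = Additive.ofMul (φ x) := rfl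
    rw [h2] at h1
    exact h1.symm
  · constructor
    · intro f g hfg
      have h1 : (Units.map (m.comp ψ₀)) (toUnits f) = (Units.map (m.comp ψ₀)) (toUnits g) := hfg
      have h2 := congrArg Units.val h1
      simp only [Units.coe_map, MonoidHom.coe_comp, Function.comp_apply, val_toUnits_apply] at h2
      exact hψ₀ (hm h2)
    · intro M
      let f : Module.End (ZMod p) (Additive A) :=
        (LinearMap.toMatrixAlgEquiv b).symm (M : Matrix (Fin 2) (Fin 2) (ZMod p))
      let f' : Module.End (ZMod p) (Additive A) :=
        (LinearMap.toMatrixAlgEquiv b).symm ((M⁻¹ : GL (Fin 2) (ZMod p)) : Matrix (Fin 2) (Fin 2) (ZMod p))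
      have hff' : f * f' = 1 := by
        show (LinearMap.toMatrixAlgEquiv b).symm _ * (LinearMap.toMatrixAlgEquiv b).symm _ = 1
        rw [← map_mul, ← Units.val_mul, mul_inv_cancel, Units.val_one, map_one]
      have hf'f : f' * f = 1 := by
        show (LinearMap.toMatrixAlgEquiv b).symm _ * (LinearMap.toMatrixAlgEquiv b).symm _ = 1
        rw [← map_mul, ← Units.val_mul, inv_mul_cancel, Units.val_one, map_one]
      let φ : MulAut A :=
        { toFun := fun x => (f (Additive.ofMul x)).toMul
          invFun := fun x => (f' (Additive.ofMul x)).toMul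
          left_inv := by
            intro x
            show (f' (Additive.ofMul (f (Additive.ofMul x)).toMul)).toMul = x
            have := congrArg (fun L : Module.End (ZMod p) (Additive A) => L (Additive.ofMul x)) hf'f
            simp only [Module.End.mul_apply, Module.End.one_apply] at this
            rw [ofMul_toMul, this, toMul_ofMul]
          right_inv := by
            intro x
            show (f (Additive.ofMul (f' (Additive.ofMul x)).toMul)).toMul = x
            have := congrArg (fun L : Module.End (ZMod p) (Additive A) => L (Additive.ofMul x)) hff'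
            simp only [Module.End.mul_apply, Module.End.one_apply] at this
            rw [ofMul_toMul, this, toMul_ofMul]
          map_mul' := by
            intro x y
            show (f (Additive.ofMul (x * y))).toMul = (f (Additive.ofMul x)).toMul * (f (Additive.ofMul y)).toMul
            rw [ofMul_mul, map_add, toMul_add] }
      refine ⟨φ, ?_⟩
      apply Units.ext
      rw [hΘ]
      have : ψ₀ φ = f := by
        refine LinearMap.ext fun v => ?_
        rfl
      rw [this]
      exact (LinearMap.toMatrixAlgEquiv b).apply_symm_apply _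

/-- Coordinates on an elementary abelian group of order `p ^ 2`. -/
theorem exists_coords {V : Type*} [Group V] [Finite V] (p : ℕ) [Fact p.Prime]
    (hc : ∀ a b : V, a * b = b * a) (hexp : ∀ v : V, v ^ p = 1) (hcard : Nat.card V = p ^ 2)
    (x₁ x₂ : V) (hx₁ : x₁ ≠ 1) (hx₂ : x₂ ∉ Subgroup.zpowers x₁) :
    ∃ (c : V → (Fin 2 → ZMod p)) (Θ : MulAut V →* GL (Fin 2) (ZMod p)),
      Function.Bijective c ∧ (∀ x y, c (x * y) = c x + c y) ∧
      c x₁ = ![1, 0] ∧ c x₂ = ![0, 1] ∧
      (∀ (φ : MulAut V) (x : V), c (φ x) = (Θ φ : Matrix (Fin 2) (Fin 2) (ZMod p)) *ᵥ c x) ∧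
      Function.Bijective Θ := by
  letI : CommGroup V := { ‹Group V› with mul_comm := hc }
  letI : Module (ZMod p) (Additive V) := AddCommGroup.zmodModule (n := p) (fun x => by
    have := hexp x.toMul
    exact congrArg Additive.ofMul this)
  exact exists_coords_aux hcard x₁ x₂ hx₁ hx₂

end Cfsg.Agent.Lib.Helper89.RV
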