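import Mathlib
import Cfsg.Agent.Lib.Helper59.SubfieldPSL

/-!
# Ruiz–Viruel bounds: 2×2 linear algebra and the projection `GL₂(F₀) → PSL₂(K)`
-/

set_option autoImplicit false

namespace Cfsg.Agent.Lib.Helper89.RV

open Matrix

section Lin

variable {F : Type*} [Field F]

theorem mulVec_two (M : Matrix (Fin 2) (Fin 2) F) (u : Fin 2 → F) :
    M *ᵥ u = ![M 0 0 * u 0 + M 0 1 * u 1, M 1 0 * u 0 + M 1 1 * u 1] := by
  funext i
  fin_cases i <;> simp [Matrix.mulVec, dotProduct, Fin.sum_univ_two]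

theorem mulVec_eq_smul_iff (M : Matrix (Fin 2) (Fin 2) F) (u : Fin 2 → F) (a : F) :
    M *ᵥ u = a • u ↔
      M 0 0 * u 0 + M 0 1 * u 1 = a * u 0 ∧ M 1 0 * u 0 + M 1 1 * u 1 = a * u 1 := by
  rw [mulVec_two]
  constructor
  · intro h
    have h0 := congrFun h 0
    have h1 := congrFun h 1
    simp at h0 h1
    exact ⟨h0, h1⟩
  · rintro ⟨h0, h1⟩
    funext i
    fin_cases i
    · simpa using h0
    · simpa using h1

theorem ne_zero_two {u : Fin 2 → F} (hu : u ≠ 0) : u 0 ≠ 0 ∨ u 1 ≠ 0 := by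
  by_contra h
  push Not at h
  apply hu
  funext i
  fin_cases i
  · exact h.1
  · exact h.2

/-- an eigenvalue is a root of the characteristic polynomial -/
theorem charpoly_eig (M : Matrix (Fin 2) (Fin 2) F) (u : Fin 2 → F) (hu : u ≠ 0) (a : F)
    (h : M *ᵥ u = a • u) : a ^ 2 - (M 0 0 + M 1 1) * a + M.det = 0 := by
  rw [mulVec_eq_smul_iff] at h
  obtain ⟨h0, h1⟩ := h
  rw [Matrix.det_fin_two]
  rcases ne_zero_two hu with hu0 | hu1
  · have : (a ^ 2 - (M 0 0 + M 1 1) * a + (M 0 0 * M 1 1 - M 0 1 * M 1 0)) * u 0 = 0 := by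
      linear_combination (M 1 1 - a) * h0 - M 0 1 * h1
    rcases mul_eq_zero.1 this with h2 | h2
    · exact h2
    · exact absurd h2 hu0
  · have : (a ^ 2 - (M 0 0 + M 1 1) * a + (M 0 0 * M 1 1 - M 0 1 * M 1 0)) * u 1 = 0 := by
      linear_combination (M 0 0 - a) * h1 - M 1 0 * h0
    rcases mul_eq_zero.1 this with h2 | h2
    · exact h2
    · exact absurd h2 hu1

/-- the two possible eigenvalues -/
theorem eig_cases (M : Matrix (Fin 2) (Fin 2) F) (u : Fin 2 → F) (hu : u ≠ 0) (a : F)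
    (h : M *ᵥ u = a • u) (w : Fin 2 → F) (hw : w ≠ 0) (μ : F) (hμ : M *ᵥ w = μ • w) :
    μ = a ∨ μ * a = M.det := by
  have h1 := charpoly_eig M u hu a h
  have h2 := charpoly_eig M w hw μ hμ
  have h3 : (μ - a) * (μ + a - (M 0 0 + M 1 1)) = 0 := by linear_combination h2 - h1
  rcases mul_eq_zero.1 h3 with h4 | h4
  · left; exact sub_eq_zero.1 h4
  · right; linear_combination a * h4 - h1

/-- two independent eigenvectors for the same eigenvalue force a scalar matrix -/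
theorem eig_scalar (M : Matrix (Fin 2) (Fin 2) F) (u w : Fin 2 → F) (a : F)
    (h : M *ᵥ u = a • u) (hw : M *ᵥ w = a • w) (hdt : u 0 * w 1 - u 1 * w 0 ≠ 0) :
    M 0 0 = a ∧ M 0 1 = 0 ∧ M 1 0 = 0 ∧ M 1 1 = a := by
  rw [mulVec_eq_smul_iff] at h hw
  obtain ⟨h0, h1⟩ := h
  obtain ⟨w0, w1⟩ := hw
  have e00 : (M 0 0 - a) * (u 0 * w 1 - u 1 * w 0) = 0 := by
    linear_combination w 1 * h0 - u 1 * w0
  have e01 : M 0 1 * (u 0 * w 1 - u 1 * w 0) = 0 := by
    linear_combination u 0 * w0 - w 0 * h0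
  have e10 : M 1 0 * (u 0 * w 1 - u 1 * w 0) = 0 := by
    linear_combination w 1 * h1 - u 1 * w1
  have e11 : (M 1 1 - a) * (u 0 * w 1 - u 1 * w 0) = 0 := by
    linear_combination u 0 * w1 - w 0 * h1
  refine ⟨?_, ?_, ?_, ?_⟩
  · rcases mul_eq_zero.1 e00 with h2 | h2
    · exact sub_eq_zero.1 h2
    · exact absurd h2 hdt
  · rcases mul_eq_zero.1 e01 with h2 | h2
    · exact h2
    · exact absurd h2 hdt
  · rcases mul_eq_zero.1 e10 with h2 | h2
    · exact h2
    · exact absurd h2 hdt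
  · rcases mul_eq_zero.1 e11 with h2 | h2
    · exact sub_eq_zero.1 h2
    · exact absurd h2 hdt

theorem eig_scalar_det (M : Matrix (Fin 2) (Fin 2) F) (u w : Fin 2 → F) (a : F)
    (h : M *ᵥ u = a • u) (hw : M *ᵥ w = a • w) (hdt : u 0 * w 1 - u 1 * w 0 ≠ 0) :
    M.det = a * a := by
  obtain ⟨h00, h01, h10, h11⟩ := eig_scalar M u w a h hw hdt
  rw [Matrix.det_fin_two, h00, h01, h10, h11]
  ring

/-- dependent vectors: `w` is a multiple of `u` -/
theorem exists_smul_of_dt_zero (u w : Fin 2 → F) (hu : u ≠ 0)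
    (hdt : u 0 * w 1 - u 1 * w 0 = 0) : ∃ μ : F, w = μ • u := by
  rcases ne_zero_two hu with hu0 | hu1
  · refine ⟨w 0 / u 0, ?_⟩
    funext i
    fin_cases i
    · simp; field_simp
    · simp; field_simp; linear_combination hdt
  · refine ⟨w 1 / u 1, ?_⟩
    funext i
    fin_cases i
    · simp; field_simp; linear_combination -hdt
    · simp; field_simp

theorem ne_zero_of_dt {u w : Fin 2 → F} (hdt : u 0 * w 1 - u 1 * w 0 ≠ 0) : u ≠ 0 := by
  rintro rfl
  simp at hdt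

theorem ne_zero_of_dt' {u w : Fin 2 → F} (hdt : u 0 * w 1 - u 1 * w 0 ≠ 0) : w ≠ 0 := by
  rintro rfl
  simp at hdt

end Lin

end Cfsg.Agent.Lib.Helper89.RV
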