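import Mathlib
import Cfsg.Agent.Lib.Helper59.SubfieldPSL
import Cfsg.Agent.Lib.Helper89.RVLin

/-!
# The projection `GL₂(F₀) → PSL₂(K)` for a field extension in which all elements of `F₀` are squares
-/

set_option autoImplicit false

namespace Cfsg.Agent.Lib.Helper89.RV

open Matrix

section Proj

variable {F₀ K : Type*} [Field F₀] [Field K] (ι : F₀ →+* K)
  (hsq : ∀ x : F₀, x ≠ 0 → IsSquare (ι x))

theorem det_ne_zero_GL (g : GL (Fin 2) F₀) : (g : Matrix (Fin 2) (Fin 2) F₀).det ≠ 0 :=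
  (Matrix.GeneralLinearGroup.det g).ne_zero

/-- a chosen square root of the determinant -/
noncomputable def sqrtDet (g : GL (Fin 2) F₀) : K :=
  Classical.choose (hsq _ (det_ne_zero_GL g))

theorem sqrtDet_spec (g : GL (Fin 2) F₀) :
    ι ((g : Matrix (Fin 2) (Fin 2) F₀).det) = sqrtDet ι hsq g * sqrtDet ι hsq g :=
  Classical.choose_spec (hsq _ (det_ne_zero_GL g))

theorem sqrtDet_ne_zero (g : GL (Fin 2) F₀) : sqrtDet ι hsq g ≠ 0 := by
  intro h0
  have := sqrtDet_spec ι hsq g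
  rw [h0, mul_zero] at this
  exact det_ne_zero_GL g (ι.injective (by rw [this, map_zero]))

/-- the normalized matrix in `SL₂(K)` -/
noncomputable def liftSL (g : GL (Fin 2) F₀) : Matrix.SpecialLinearGroup (Fin 2) K :=
  ⟨(sqrtDet ι hsq g)⁻¹ • ι.mapMatrix (g : Matrix (Fin 2) (Fin 2) F₀), by
    rw [Matrix.det_smul, Fintype.card_fin, ← RingHom.map_det, sqrtDet_spec ι hsq g]
    have := sqrtDet_ne_zero ι hsq g
    field_simp⟩

theorem liftSL_coe (g : GL (Fin 2) F₀) :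
    ((liftSL ι hsq g : Matrix.SpecialLinearGroup (Fin 2) K) : Matrix (Fin 2) (Fin 2) K)
      = (sqrtDet ι hsq g)⁻¹ • ι.mapMatrix (g : Matrix (Fin 2) (Fin 2) F₀) := rfl

/-- the projection `GL₂(F₀) → PSL₂(K)` -/
noncomputable def projHom : GL (Fin 2) F₀ →* Matrix.ProjectiveSpecialLinearGroup (Fin 2) K :=
  MonoidHom.mk' (fun g => QuotientGroup.mk (liftSL ι hsq g)) (by
    intro g h
    show (QuotientGroup.mk (liftSL ι hsq (g * h)) : Matrix.ProjectiveSpecialLinearGroup (Fin 2) K)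
      = QuotientGroup.mk (liftSL ι hsq g) * QuotientGroup.mk (liftSL ι hsq h)
    rw [← QuotientGroup.mk_mul]
    symm
    apply Cfsg.Agent.Lib.Helper59.psl_mk_eq_of_smul _ _
      (sqrtDet ι hsq g * sqrtDet ι hsq h * (sqrtDet ι hsq (g * h))⁻¹)
    rw [Matrix.SpecialLinearGroup.coe_mul, liftSL_coe, liftSL_coe, liftSL_coe,
      Matrix.GeneralLinearGroup.coe_mul, map_mul, Matrix.smul_mul, Matrix.mul_smul, smul_smul,
      smul_smul]
    congr 1
    have h1 := sqrtDet_ne_zero ι hsq g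
    have h2 := sqrtDet_ne_zero ι hsq h
    have h3 := sqrtDet_ne_zero ι hsq (g * h)
    field_simp)

theorem projHom_apply (g : GL (Fin 2) F₀) :
    projHom ι hsq g = QuotientGroup.mk (liftSL ι hsq g) := rfl

theorem exists_entry_ne_zero (g : GL (Fin 2) F₀) :
    ∃ i j, (g : Matrix (Fin 2) (Fin 2) F₀) i j ≠ 0 := by
  by_contra hcon
  push Not at hcon
  apply det_ne_zero_GL g
  rw [Matrix.det_fin_two, hcon 0 0, hcon 0 1]
  ring

/-- equal images in `PSL₂(K)` means proportional over `F₀` -/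
theorem projHom_eq_imp (g h : GL (Fin 2) F₀) (e : projHom ι hsq g = projHom ι hsq h) :
    ∃ c : F₀, (h : Matrix (Fin 2) (Fin 2) F₀) = c • (g : Matrix (Fin 2) (Fin 2) F₀) := by
  rw [projHom_apply, projHom_apply, QuotientGroup.eq,
    Matrix.SpecialLinearGroup.mem_center_iff] at e
  obtain ⟨r, -, hr⟩ := e
  have h1 : ((liftSL ι hsq h : Matrix.SpecialLinearGroup (Fin 2) K) : Matrix (Fin 2) (Fin 2) K)
      = r • ((liftSL ι hsq g : Matrix.SpecialLinearGroup (Fin 2) K) : Matrix (Fin 2) (Fin 2) K) := by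
    have h2 : liftSL ι hsq h = liftSL ι hsq g * ((liftSL ι hsq g)⁻¹ * liftSL ι hsq h) := by
      rw [mul_inv_cancel_left]
    rw [h2, Matrix.SpecialLinearGroup.coe_mul, ← hr]
    ext i j
    simp [Matrix.mul_apply, Matrix.scalar_apply, Matrix.diagonal_apply]
    fin_cases j <;> simp [mul_comm]
  rw [liftSL_coe, liftSL_coe] at h1
  have hg0 := sqrtDet_ne_zero ι hsq g
  have hh0 := sqrtDet_ne_zero ι hsq h
  have hent : ∀ i j, ι ((h : Matrix (Fin 2) (Fin 2) F₀) i j)
      = (sqrtDet ι hsq h * r * (sqrtDet ι hsq g)⁻¹) * ι ((g : Matrix (Fin 2) (Fin 2) F₀) i j) := by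
    intro i j
    have := congrFun (congrFun h1 i) j
    simp only [Matrix.smul_apply, RingHom.mapMatrix_apply, Matrix.map_apply, smul_eq_mul] at this
    field_simp at this ⊢
    linear_combination this
  obtain ⟨i₀, j₀, hij⟩ := exists_entry_ne_zero g
  refine ⟨(h : Matrix (Fin 2) (Fin 2) F₀) i₀ j₀ / (g : Matrix (Fin 2) (Fin 2) F₀) i₀ j₀, ?_⟩
  have hij' : ι ((g : Matrix (Fin 2) (Fin 2) F₀) i₀ j₀) ≠ 0 := by
    intro h0
    exact hij (ι.injective (by rw [h0, map_zero]))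
  have hlam : sqrtDet ι hsq h * r * (sqrtDet ι hsq g)⁻¹
      = ι ((h : Matrix (Fin 2) (Fin 2) F₀) i₀ j₀ / (g : Matrix (Fin 2) (Fin 2) F₀) i₀ j₀) := by
    rw [map_div₀, hent i₀ j₀]
    field_simp
  ext i j
  apply ι.injective
  rw [hent i j, hlam, Matrix.smul_apply, smul_eq_mul, map_mul]

end Proj

end Cfsg.Agent.Lib.Helper89.RV
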