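import Mathlib
import Cfsg.Agent.Lib.Helper24.TranspPrim2

/-!
# Separation criteria for central cores of a 3-transposition group (helper89)

* `TC.pCore_two_le_center_of_sep`, `TC.pCore_three_le_center_of_sep`: combinatorial criteria on
  the commuting graph of `D` forcing `O₂(G)`, `O₃(G)` to be central.
* `TC.structure_of_cores_of_connected`: central cores and connected commuting graph give that
  `G'` is quasisimple of index at most 2, `F*(G) = Z(G) G'`, and `G` is primitive on `D`.
-/

set_option autoImplicit false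

namespace Cfsg.Agent.Lib.Helper89.TranspSep

open Cfsg Cfsg.Agent.Lib.Helper24
open scoped commutatorElement

universe u

section

variable {G : Type*} [Group G] {D : Set G}

theorem TC.exists_mem_of_not_le (h : TC D) (N : Subgroup G)
    (hZ : ¬ N ≤ Subgroup.center G) : ∃ d, d ∈ D := by
  by_contra hne
  push Not at hne
  exact hZ (h.le_center_of_commute N (fun d hd => absurd hd (hne d)))

/-- if any two distinct commuting members `d, d'` of `D` are separated by some `b ∈ D` commuting
with `d'` but not with `d`, then `O₂(G)` is central -/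
theorem TC.pCore_two_le_center_of_sep (h : TC D)
    (hsep : ∀ d ∈ D, ∀ d' ∈ D, d ≠ d' → Commute d d' →
      ∃ b ∈ D, Commute b d' ∧ ¬ Commute b d) :
    Cfsg.pCore 2 G ≤ Subgroup.center G := by
  have : Fact (Nat.Prime 2) := ⟨Nat.prime_two⟩
  have hn := pCore_normal_h24 2 G
  have hP := pCore_isPGroup_h24 2 G
  by_contra hZ
  obtain ⟨d, hd⟩ := TC.exists_mem_of_not_le h _ hZ
  obtain ⟨u, hu, hu1, hu2, hdu⟩ := h.exists_core_two hZ hd
  have hne : d ≠ d * u := by
    intro heq
    apply hu1
    have := mul_left_cancel (a := d) (b := 1) (c := u) (by rw [mul_one]; exact heq)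
    exact this.symm
  have hddu : d * (d * u) = u := h.td.sqL hd u
  have hcomm : Commute d (d * u) := by
    apply h.td.commute_of_sq hd hdu
    rw [hddu]; exact hu2
  obtain ⟨b, hb, hbd', hbd⟩ := hsep d hd (d * u) hdu hne hcomm
  have hdb : ¬ Commute d b := fun hc => hbd hc.symm
  have h3 := h.td.cube hd hb hdb
  have hbinv := h.td.inv hb
  -- `u * (b u b⁻¹) = (d b)^2`
  have hkey : u * (b * u * b⁻¹) = (d * b) ^ 2 := by
    have e1 : b * u * b⁻¹ = b * d * b * (d * u) := by
      have e2 : u = d * (d * u) := hddu.symm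
      calc b * u * b⁻¹ = b * (d * (d * u)) * b := by rw [hbinv, ← e2]
        _ = b * d * ((d * u) * b) := by group
        _ = b * d * (b * (d * u)) := by rw [hbd'.eq]
        _ = b * d * b * (d * u) := by group
    have e3 : (d * u) * (b * d * b) = (b * d * b) * (d * u) := by
      calc (d * u) * (b * d * b) = ((d * u) * b) * d * b := by group
        _ = (b * (d * u)) * d * b := by rw [hbd'.eq]
        _ = b * ((d * u) * d) * b := by group
        _ = b * (d * (d * u)) * b := by rw [hcomm.eq]
        _ = b * d * ((d * u) * b) := by group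
        _ = b * d * (b * (d * u)) := by rw [hbd'.eq]
        _ = (b * d * b) * (d * u) := by group
    calc u * (b * u * b⁻¹) = d * (d * u) * (b * d * b * (d * u)) := by rw [e1, hddu]
      _ = d * ((d * u) * (b * d * b)) * (d * u) := by group
      _ = d * ((b * d * b) * (d * u)) * (d * u) := by rw [e3]
      _ = d * (b * d * b) * ((d * u) * (d * u)) := by group
      _ = d * (b * d * b) := by rw [h.td.sq _ hdu, mul_one]
      _ = (d * b) ^ 2 := by rw [pow_two]; group
  have hm : (d * b) ^ 2 ∈ Cfsg.pCore 2 G := by
    rw [← hkey]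
    exact mul_mem hu (hn.conj_mem u hu b)
  have h6 : ((d * b) ^ 2) ^ 3 = 1 := by
    rw [← pow_mul, mul_comm, pow_mul, h3, one_pow]
  have h1 := eq_one_of_pow_prime_of_isPGroup Nat.prime_three Nat.prime_two (by omega) hP hm h6
  exact hdb (h.td.commute_of_sq hd hb h1)

/-- if any two non-commuting members `d, d'` of `D` are separated by some `b ∈ D`, `b ≠ d`,
commuting with `d` but not with `d'`, then `O₃(G)` is central -/
theorem TC.pCore_three_le_center_of_sep (h : TC D)
    (hsep : ∀ d ∈ D, ∀ d' ∈ D, ¬ Commute d d' →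
      ∃ b ∈ D, b ≠ d ∧ Commute b d ∧ ¬ Commute b d') :
    Cfsg.pCore 3 G ≤ Subgroup.center G := by
  have : Fact (Nat.Prime 3) := ⟨Nat.prime_three⟩
  have hn := pCore_normal_h24 3 G
  have hP := pCore_isPGroup_h24 3 G
  by_contra hZ
  obtain ⟨d, hd⟩ := TC.exists_mem_of_not_le h _ hZ
  obtain ⟨u, hu, hu1, hu3, hdu⟩ := h.exists_core_three hZ hd
  have hddu : d * (d * u) = u := h.td.sqL hd u
  have hnc : ¬ Commute d (d * u) := by
    intro hc
    apply hu1
    have h2 : u ^ 2 = 1 := by
      have := hc.mul_pow 2
      rw [hddu, pow_two d, pow_two (d * u), h.td.sq d hd, h.td.sq _ hdu, one_mul] at this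
      exact this
    have : u ^ 3 = u ^ 2 * u := pow_succ u 2
    rw [hu3, h2, one_mul] at this
    exact this.symm
  obtain ⟨b, hb, hbne, hbd, hbd'⟩ := hsep d hd (d * u) hdu hnc
  have hbinv := h.td.inv hb
  set d' := d * u with hd'def
  have hbr1 : d * d' * d = d' * d * d' := h.td.braid hd hdu hnc
  have hbr2 : b * d' * b = d' * b * d' := h.td.braid hb hdu hbd'
  have hkey : u * (b * u * b⁻¹) = d' * (d * b) * d' := by
    calc u * (b * u * b⁻¹) = d * d' * (b * (d * d') * b) := by rw [hbinv, hddu]
      _ = d * d' * ((b * d) * d' * b) := by group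
      _ = d * d' * ((d * b) * d' * b) := by rw [hbd.eq]
      _ = (d * d' * d) * (b * d' * b) := by group
      _ = (d' * d * d') * (d' * b * d') := by rw [hbr1, hbr2]
      _ = d' * d * (d' * d') * b * d' := by group
      _ = d' * (d * b) * d' := by rw [h.td.sq _ hdu]; group
  have hm : d' * (d * b) * d' ∈ Cfsg.pCore 3 G := by
    rw [← hkey]
    exact mul_mem hu (hn.conj_mem u hu b)
  have hdb2 : (d * b) * (d * b) = 1 := by
    calc (d * b) * (d * b) = d * (b * d) * b := by group
      _ = d * (d * b) * b := by rw [hbd.eq]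
      _ = (d * d) * (b * b) := by group
      _ = 1 := by rw [h.td.sq d hd, h.td.sq b hb, one_mul]
  have h2 : (d' * (d * b) * d') ^ 2 = 1 := by
    calc (d' * (d * b) * d') ^ 2 = d' * (d * b) * (d' * d') * (d * b) * d' := by
          rw [pow_two]; group
      _ = d' * ((d * b) * (d * b)) * d' := by rw [h.td.sq _ hdu]; group
      _ = 1 := by rw [hdb2, mul_one, h.td.sq _ hdu]
  have h1 := eq_one_of_pow_prime_of_isPGroup Nat.prime_two Nat.prime_three (by omega) hP hm h2
  apply hbne
  have h4 : d * b = 1 := by
    calc d * b = d' * (d' * (d * b) * d') * d' := by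
          rw [show d' * (d' * (d * b) * d') * d' = (d' * d') * (d * b) * (d' * d') by group,
            h.td.sq _ hdu, one_mul, mul_one]
      _ = 1 := by rw [h1, mul_one, h.td.sq _ hdu]
  have := eq_inv_of_mul_eq_one_right h4
  rw [this, h.td.inv hd]

end

section

variable {G : Type u} [Group G] [Finite G] {D : Set G}

/-- central cores and connected commuting graph: `G'` is quasisimple of index at most 2,
`F*(G) = Z(G) G'` and `G` is primitive on `D` -/
theorem TC.structure_of_cores_of_connected (h : TC D) (hD2 : ∃ a ∈ D, ∃ b ∈ D, a ≠ b)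
    (h2 : Cfsg.pCore 2 G ≤ Subgroup.center G) (h3 : Cfsg.pCore 3 G ≤ Subgroup.center G)
    (hconn : (Cfsg.commutingGraph D).Connected) :
    Cfsg.IsQuasisimple (commutator G) ∧ (commutator G).index ≤ 2 ∧
      Cfsg.generalizedFittingSubgroup G = Subgroup.center G ⊔ commutator G ∧
      Cfsg.IsPrimitiveUnderConj D := by
  obtain ⟨L, hLn, hLc, -, hF⟩ := h.exists_component hD2 h2 h3
  obtain ⟨⟨d, hd⟩⟩ := hconn.nonempty
  have hco : ∀ e ∈ D, d⁻¹ * e ∈ L := fun e he => h.mul_mem_of_connected L hLc hconn hd he
  have hcomm : commutator G = L := by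
    apply le_antisymm
    · rw [commutator_def, Subgroup.commutator_le]
      intro g₁ _ g₂ _
      rw [← QuotientGroup.eq_one_iff, ← QuotientGroup.mk'_apply, map_commutatorElement]
      rcases h.quot_cases L hd hco g₁ with h1 | h1 <;> rcases h.quot_cases L hd hco g₂ with h2 | h2
      · rw [h1, h2]; exact commutatorElement_self _
      · rw [h1]; exact commutatorElement_one_left _
      · rw [h2]; exact commutatorElement_one_right _
      · rw [h1, h2]; exact commutatorElement_self _
    · rw [commutator_def, ← Cfsg.Agent.Lib.Helper22.IsComponent.perfect hLc]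
      exact Subgroup.commutator_mono le_top le_top
  refine ⟨?_, ?_, ?_, h.primitive_of_cores_of_connected hD2 h2 h3 hconn⟩
  · rw [hcomm]; exact hLc.2
  · rw [hcomm]; exact h.index_le_two_of_connected L hLc hconn
  · rw [hcomm, hF, sup_comm]

end

end Cfsg.Agent.Lib.Helper89.TranspSep
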