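import Mathlib
import Cfsg.Agent.Lib.Helper89.TranspSep
import Cfsg.Agent.Lib.Helper89.ReflGeom
import Cfsg.Agent.S5358

/-!
# The reflection group of a quadratic space over `𝔽₃` (helper89)

`refl_structure`: for `n ≥ 5` the group `R` generated by the reflections of norm `c` has
quasisimple commutator subgroup of index at most 2, `F*(R) = Z(R) R'`, and `R` is primitive on
its reflections of norm `c`.
-/

set_option autoImplicit false

namespace Cfsg.Agent.Lib.Helper89.ReflPrim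

open Module Cfsg Cfsg.Agent.Lib.Helper14 Cfsg.Agent.Lib.Helper44 Cfsg.Agent.Lib.Helper24
  Cfsg.Agent.Lib.Helper89.TranspSep Cfsg.Agent.Lib.Helper89.ReflGeom

section abstract

variable {G : Type*} [Group G] {D : Set G}

/-- if any two members of `D` have a common neighbour in the commuting graph, it is connected -/
theorem connected_of_common_neighbor (hne : D.Nonempty)
    (h : ∀ a ∈ D, ∀ b ∈ D, ∃ e ∈ D, e ≠ a ∧ e ≠ b ∧ Commute a e ∧ Commute e b) :
    (Cfsg.commutingGraph D).Connected := by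
  obtain ⟨d0, hd0⟩ := hne
  have : Nonempty D := ⟨⟨d0, hd0⟩⟩
  refine ⟨?_⟩
  intro a b
  obtain ⟨e, he, hea, heb, hae, heb'⟩ := h a.1 a.2 b.1 b.2
  have h1 : (Cfsg.commutingGraph D).Adj a ⟨e, he⟩ := by
    unfold Cfsg.commutingGraph
    rw [SimpleGraph.fromRel_adj]
    refine ⟨?_, Or.inl hae⟩
    intro heq
    exact hea (congrArg Subtype.val heq).symm
  have h2 : (Cfsg.commutingGraph D).Adj ⟨e, he⟩ b := by
    unfold Cfsg.commutingGraph
    rw [SimpleGraph.fromRel_adj]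
    refine ⟨?_, Or.inl heb'⟩
    intro heq
    exact heb (congrArg Subtype.val heq)
  exact h1.reachable.trans h2.reachable

end abstract

section

variable {n : ℕ} (Q : QuadraticForm (ZMod 3) (Fin n → ZMod 3))
  (hQ : (QuadraticMap.polarBilin Q).Nondegenerate) {c : ZMod 3} (hc : c ≠ 0)

/-- the class of reflections of norm `c` inside the reflection subgroup -/
def reflClass (Q : QuadraticForm (ZMod 3) (Fin n → ZMod 3)) (c : ZMod 3) :
    Set ↥(Cfsg.reflectionSubgroup (⇑Q) c) :=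
  {g | (g : ↥(Cfsg.isometryGroup (ZMod 3) (⇑Q))) ∈ Cfsg.reflectionsOfNorm (⇑Q) c}

/-- the matrix of an element of the reflection subgroup -/
def toMat (Q : QuadraticForm (ZMod 3) (Fin n → ZMod 3)) (c : ZMod 3) :
    ↥(Cfsg.reflectionSubgroup (⇑Q) c) →* Matrix (Fin n) (Fin n) (ZMod 3) :=
  (Units.coeHom _).comp ((Cfsg.isometryGroup (ZMod 3) (⇑Q)).subtype.comp
    (Cfsg.reflectionSubgroup (⇑Q) c).subtype)

theorem toMat_injective : Function.Injective (toMat Q c) := by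
  intro a b hab
  apply Subtype.ext
  apply Subtype.ext
  exact Units.ext hab

/-- the reflection of a vector of norm `c`, as an element of the reflection subgroup -/
noncomputable def rv (v : Fin n → ZMod 3) (hv : Q v = c) :
    ↥(Cfsg.reflectionSubgroup (⇑Q) c) :=
  ⟨reflElt Q hQ v (by rw [hv]; exact hc), reflElt_mem_reflectionSubgroup Q hQ c v _ hv⟩

theorem rv_mem (v : Fin n → ZMod 3) (hv : Q v = c) : rv Q hQ hc v hv ∈ reflClass Q c :=
  (mem_reflectionsOfNorm_iff Q hQ hc _).mpr ⟨v, by rw [hv]; exact hc, hv, rfl⟩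

theorem exists_rv {g : ↥(Cfsg.reflectionSubgroup (⇑Q) c)} (hg : g ∈ reflClass Q c) :
    ∃ v, ∃ hv : Q v = c, g = rv Q hQ hc v hv := by
  obtain ⟨v, hv0, hv, hgv⟩ := (mem_reflectionsOfNorm_iff Q hQ hc _).mp hg
  exact ⟨v, hv, Subtype.ext hgv⟩

theorem toMat_rv (v : Fin n → ZMod 3) (hv : Q v = c) :
    toMat Q c (rv Q hQ hc v hv) = Cfsg.reflectionMatrix ⇑Q v := rfl

theorem commute_rv_iff {u v : Fin n → ZMod 3} (hu : Q u = c) (hv : Q v = c) (h1 : v ≠ u)
    (h2 : v ≠ -u) :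
    Commute (rv Q hQ hc u hu) (rv Q hQ hc v hv) ↔ QuadraticMap.polar ⇑Q u v = 0 := by
  rw [← Cfsg.Agent.S5358.result n Q hQ u v (by rw [hu]; exact hc) (hu.trans hv.symm) h1 h2]
  constructor
  · intro h
    have := h.map (toMat Q c)
    rw [toMat_rv, toMat_rv] at this
    exact this
  · intro h
    apply toMat_injective Q
    rw [map_mul, map_mul, toMat_rv, toMat_rv]
    exact h.eq

theorem rv_eq_of_eq {u v : Fin n → ZMod 3} (hu : Q u = c) (hv : Q v = c) (h : v = u) :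
    rv Q hQ hc v hv = rv Q hQ hc u hu := by
  subst h; rfl

theorem rv_eq_of_eq_neg {u v : Fin n → ZMod 3} (hu : Q u = c) (hv : Q v = c) (h : v = -u) :
    rv Q hQ hc v hv = rv Q hQ hc u hu := by
  subst h
  exact Subtype.ext (reflElt_neg Q hQ u (by rw [hu]; exact hc) (by rw [hv]; exact hc))

theorem ne_of_polar_eq_zero (hc' : c ≠ 0) {u v : Fin n → ZMod 3} (hu : Q u = c)
    (h : QuadraticMap.polar ⇑Q u v = 0) : v ≠ u ∧ v ≠ -u := by
  have h2c : (2 : ZMod 3) * c ≠ 0 := mul_ne_zero zmod3_two_ne hc'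
  constructor
  · intro hvu
    rw [hvu, polar_self_eq, hu] at h
    exact h2c h
  · intro hvu
    rw [hvu, QuadraticMap.polar_neg_right, polar_self_eq, hu, neg_eq_zero] at h
    exact h2c h

theorem commute_rv_of_polar {u v : Fin n → ZMod 3} (hu : Q u = c) (hv : Q v = c)
    (h : QuadraticMap.polar ⇑Q u v = 0) : Commute (rv Q hQ hc u hu) (rv Q hQ hc v hv) := by
  obtain ⟨h1, h2⟩ := ne_of_polar_eq_zero Q hc hu h
  exact (commute_rv_iff Q hQ hc hu hv h1 h2).mpr h

theorem rv_ne_of_polar {u v : Fin n → ZMod 3} (hu : Q u = c) (hv : Q v = c)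
    (h : QuadraticMap.polar ⇑Q u v = 0) : rv Q hQ hc u hu ≠ rv Q hQ hc v hv := by
  intro heq
  have h1 := congrArg (fun g => Matrix.mulVec (toMat Q c g) u) heq
  simp only [toMat_rv] at h1
  rw [reflectionMatrix_mulVec, reflectionMatrix_mulVec, polar_self_eq,
    QuadraticMap.polar_comm (⇑Q) v u, h, hu, hv, mul_zero, zero_smul, sub_zero] at h1
  have h2 : (c⁻¹ * (2 * c)) • u = 0 := by
    have := sub_eq_self.mp h1
    exact this
  have h3 : c⁻¹ * (2 * c) ≠ 0 :=
    mul_ne_zero (inv_ne_zero hc) (mul_ne_zero zmod3_two_ne hc)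
  rcases smul_eq_zero.mp h2 with h4 | h4
  · exact h3 h4
  · rw [h4, QuadraticMap.map_zero] at hu
    exact hc hu.symm

theorem polar_of_commute_rv {u v : Fin n → ZMod 3} (hu : Q u = c) (hv : Q v = c)
    (hne : rv Q hQ hc u hu ≠ rv Q hQ hc v hv)
    (h : Commute (rv Q hQ hc u hu) (rv Q hQ hc v hv)) : QuadraticMap.polar ⇑Q u v = 0 := by
  have h1 : v ≠ u := fun hvu => hne (rv_eq_of_eq Q hQ hc hu hv hvu).symm
  have h2 : v ≠ -u := fun hvu => hne (rv_eq_of_eq_neg Q hQ hc hu hv hvu).symm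
  exact (commute_rv_iff Q hQ hc hu hv h1 h2).mp h

theorem polar_of_not_commute_rv {u v : Fin n → ZMod 3} (hu : Q u = c) (hv : Q v = c)
    (h : ¬ Commute (rv Q hQ hc u hu) (rv Q hQ hc v hv)) :
    QuadraticMap.polar ⇑Q u v ≠ 0 ∧ v ≠ u ∧ v ≠ -u := by
  have h1 : v ≠ u := by
    intro hvu
    apply h
    rw [rv_eq_of_eq Q hQ hc hu hv hvu]
  have h2 : v ≠ -u := by
    intro hvu
    apply h
    rw [rv_eq_of_eq_neg Q hQ hc hu hv hvu]
  exact ⟨fun hp => h ((commute_rv_iff Q hQ hc hu hv h1 h2).mpr hp), h1, h2⟩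

/-- S5360: the structure of the group generated by the reflections of norm `c` of a
non-degenerate quadratic space of dimension at least five over `𝔽₃` -/
theorem refl_structure (hQ' : (QuadraticMap.polarBilin Q).Nondegenerate) (hc' : c ≠ 0)
    (hn : 5 ≤ n) :
    Cfsg.IsQuasisimple (commutator ↥(Cfsg.reflectionSubgroup (⇑Q) c)) ∧
      (commutator ↥(Cfsg.reflectionSubgroup (⇑Q) c)).index ≤ 2 ∧
      Cfsg.generalizedFittingSubgroup ↥(Cfsg.reflectionSubgroup (⇑Q) c) =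
        Subgroup.center ↥(Cfsg.reflectionSubgroup (⇑Q) c) ⊔
          commutator ↥(Cfsg.reflectionSubgroup (⇑Q) c) ∧
      Cfsg.IsPrimitiveUnderConj (reflClass Q c) := by
  have hD := isThreeTranspositionClass_reflF3 Q hQ' (by rw [Fintype.card_fin]; exact hn) c hc'
  have hTC : TC (reflClass Q c) := TC.of_class hD
  have hfin : 5 ≤ finrank (ZMod 3) (Fin n → ZMod 3) := by
    rw [Module.finrank_fintype_fun_eq_card, Fintype.card_fin]; exact hn
  obtain ⟨d0, hd0, -⟩ := hD.2.1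
  have hd0' : d0 ∈ reflClass Q c := hd0
  -- common neighbours
  have hnb : ∀ a ∈ reflClass Q c, ∀ b ∈ reflClass Q c, ∃ e ∈ reflClass Q c, e ≠ a ∧ e ≠ b ∧
      Commute a e ∧ Commute e b := by
    intro a ha b hb
    obtain ⟨u, hu, rfl⟩ := exists_rv Q hQ' hc' ha
    obtain ⟨v, hv, rfl⟩ := exists_rv Q hQ' hc' hb
    obtain ⟨e, he, hue, hve⟩ := exists_orth_pair_repr zmod3_two_ne Q hQ' hfin u v
      (by rw [hu]; exact hc') c
    have hev : QuadraticMap.polar ⇑Q e v = 0 := by rw [QuadraticMap.polar_comm]; exact hve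
    exact ⟨rv Q hQ' hc' e he, rv_mem Q hQ' hc' e he, (rv_ne_of_polar Q hQ' hc' hu he hue).symm,
      rv_ne_of_polar Q hQ' hc' he hv hev, commute_rv_of_polar Q hQ' hc' hu he hue,
      commute_rv_of_polar Q hQ' hc' he hv hev⟩
  have hconn : (Cfsg.commutingGraph (reflClass Q c)).Connected :=
    connected_of_common_neighbor ⟨d0, hd0'⟩ hnb
  have hD2 : ∃ a ∈ reflClass Q c, ∃ b ∈ reflClass Q c, a ≠ b := by
    obtain ⟨e, he, hea, -, -, -⟩ := hnb d0 hd0' d0 hd0'
    exact ⟨d0, hd0', e, he, fun h => hea h.symm⟩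
  have h2 : Cfsg.pCore 2 ↥(Cfsg.reflectionSubgroup (⇑Q) c) ≤
      Subgroup.center ↥(Cfsg.reflectionSubgroup (⇑Q) c) := by
    apply TC.pCore_two_le_center_of_sep hTC
    intro d hd d' hd' hne hcomm
    obtain ⟨v, hv, rfl⟩ := exists_rv Q hQ' hc' hd
    obtain ⟨v', hv', rfl⟩ := exists_rv Q hQ' hc' hd'
    have hp := polar_of_commute_rv Q hQ' hc' hv hv' hne hcomm
    obtain ⟨w, hw, hwv', hwv, hw1, hw2⟩ := exists_sep_two Q hQ' hfin hc' hv hp
    refine ⟨rv Q hQ' hc' w hw, rv_mem Q hQ' hc' w hw, commute_rv_of_polar Q hQ' hc' hw hv' hwv', ?_⟩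
    intro hcom
    have hvw1 : v ≠ w := fun h => hw1 h.symm
    have hvw2 : v ≠ -w := fun h => hw2 (by rw [h, neg_neg])
    exact hwv ((commute_rv_iff Q hQ' hc' hw hv hvw1 hvw2).mp hcom)
  have h3 : Cfsg.pCore 3 ↥(Cfsg.reflectionSubgroup (⇑Q) c) ≤
      Subgroup.center ↥(Cfsg.reflectionSubgroup (⇑Q) c) := by
    apply TC.pCore_three_le_center_of_sep hTC
    intro d hd d' hd' hnc
    obtain ⟨v, hv, rfl⟩ := exists_rv Q hQ' hc' hd
    obtain ⟨v', hv', rfl⟩ := exists_rv Q hQ' hc' hd'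
    obtain ⟨hp, hne1, hne2⟩ := polar_of_not_commute_rv Q hQ' hc' hv hv' hnc
    obtain ⟨w, hw, hwv, hwv'⟩ := exists_sep_three Q hQ' hc' hv hv' hp hne1 hne2
    refine ⟨rv Q hQ' hc' w hw, rv_mem Q hQ' hc' w hw, rv_ne_of_polar Q hQ' hc' hw hv hwv,
      commute_rv_of_polar Q hQ' hc' hw hv hwv, ?_⟩
    intro hcom
    have h1 : v' ≠ w := by
      intro h
      apply hp
      rw [h, QuadraticMap.polar_comm]
      exact hwv
    have h2' : v' ≠ -w := by
      intro h
      apply hp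
      rw [h, QuadraticMap.polar_neg_right, QuadraticMap.polar_comm, hwv, neg_zero]
    exact hwv' ((commute_rv_iff Q hQ' hc' hw hv' h1 h2').mp hcom)
  exact TC.structure_of_cores_of_connected hTC hD2 h2 h3 hconn

end

end Cfsg.Agent.Lib.Helper89.ReflPrim
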