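import Mathlib

/-!
# Sims' theorem on suborbits of length 3, part A (helper89)

Group-theoretic form.  `P` is a point stabilizer, `s` a "shift" element and
`St P s i j` is the intersection of the conjugates `s^l P s^{-l}`, `i ≤ l ≤ j`
(pointwise stabilizer of the path segment `α_i … α_j`, `α_l = s^l α_0`).
This file builds the chain structure `Chain P s t`:
`|St i i| = 3·2^(t-1)`, `|St i (i+d)| = 2^(t-d)` for `1 ≤ d ≤ t`.
-/

set_option autoImplicit false

namespace Cfsg.Agent.Lib.Helper89.Sims3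

section generic

variable {G : Type*} [Group G]

theorem card_mul_relIndex' {A B : Subgroup G} (h : B ≤ A) :
    Nat.card B * B.relIndex A = Nat.card A := by
  have := Subgroup.relIndex_mul_relIndex ⊥ B A bot_le h
  rwa [Subgroup.relIndex_bot_left, Subgroup.relIndex_bot_left] at this

theorem relIndex_eq_of_card [Finite G] {A B : Subgroup G} (h : B ≤ A) {q : ℕ}
    (hc : Nat.card A = q * Nat.card B) : B.relIndex A = q := by
  have h1 := card_mul_relIndex' h
  have hpos : 0 < Nat.card B := Nat.card_pos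
  rw [hc, mul_comm q] at h1
  exact Nat.eq_of_mul_eq_mul_left hpos h1

/-- index two: the product of two outside elements is inside. -/
theorem mul_mem_of_index_two [Finite G] {A B : Subgroup G} (hBA : B ≤ A)
    (hc : Nat.card A = 2 * Nat.card B) {x g : G} (hx : x ∈ A) (hg : g ∈ A)
    (hxB : x ∉ B) (hgB : g ∉ B) : x * g ∈ B := by
  have h2 : (B.subgroupOf A).index = 2 := relIndex_eq_of_card hBA hc
  have := Subgroup.mul_mem_iff_of_index_two h2 (a := (⟨x, hx⟩ : A)) (b := ⟨g, hg⟩)
  simp only [Subgroup.mem_subgroupOf] at this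
  exact this.2 ⟨fun h => absurd h hxB, fun h => absurd h hgB⟩

theorem le_normalizer_of_index_two [Finite G] {A B : Subgroup G} (hBA : B ≤ A)
    (hc : Nat.card A = 2 * Nat.card B) : A ≤ Subgroup.normalizer (B : Set G) := by
  have h2 : (B.subgroupOf A).index = 2 := relIndex_eq_of_card hBA hc
  have := Subgroup.normal_of_index_eq_two h2
  exact (Subgroup.normal_subgroupOf_iff_le_normalizer hBA).1 this

theorem le_sup_of_prime_index [Finite G] {A B C : Subgroup G} (hA : A ≤ C) (hB : B ≤ C)
    (hne : A ≠ B) (hcard : Nat.card A = Nat.card B) {q : ℕ} (hq : q.Prime)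
    (hC : Nat.card C = q * Nat.card A) : C ≤ A ⊔ B := by
  have hAS : A ≤ A ⊔ B := le_sup_left
  have hSC : A ⊔ B ≤ C := sup_le hA hB
  have h1 : Nat.card A ∣ Nat.card (A ⊔ B : Subgroup G) := Subgroup.card_dvd_of_le hAS
  have h2 : Nat.card (A ⊔ B : Subgroup G) ∣ Nat.card C := Subgroup.card_dvd_of_le hSC
  obtain ⟨m, hm⟩ := h1
  rw [hm, hC, mul_comm q] at h2
  have hpos : 0 < Nat.card A := Nat.card_pos
  have h3 : m ∣ q := (Nat.mul_dvd_mul_iff_left hpos).1 h2
  rcases (Nat.dvd_prime hq).1 h3 with h | h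
  · exfalso
    have hcardS : Nat.card (A ⊔ B : Subgroup G) = Nat.card A := by rw [hm, h, mul_one]
    have hAeq : A = A ⊔ B := Subgroup.eq_of_le_of_card_ge hAS (by rw [hcardS])
    have hBA : B ≤ A := by rw [hAeq]; exact le_sup_right
    exact hne (Subgroup.eq_of_le_of_card_ge hBA (by rw [hcard])).symm
  · have hcardS : Nat.card (A ⊔ B : Subgroup G) = Nat.card C := by rw [hm, h, hC, mul_comm]
    exact (Subgroup.eq_of_le_of_card_ge hSC (by rw [hcardS])).ge

theorem conj_mem_closure {S : Set G} {N : Subgroup G} {x : G}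
    (h : ∀ g ∈ S, x * g * x⁻¹ ∈ N) : ∀ g ∈ Subgroup.closure S, x * g * x⁻¹ ∈ N := by
  intro g hg
  have : Subgroup.closure S ≤ N.comap (MulAut.conj x).toMonoidHom := by
    rw [Subgroup.closure_le]
    intro g hg
    simpa using h g hg
  simpa using this hg

theorem le_normalizer_of_conj_mem {B N : Subgroup G}
    (h : ∀ p ∈ B, ∀ g ∈ N, p * g * p⁻¹ ∈ N) : B ≤ Subgroup.normalizer (N : Set G) := by
  intro p hp
  rw [Subgroup.mem_normalizer_iff]
  intro g
  refine ⟨h p hp g, fun hg => ?_⟩
  have := h p⁻¹ (B.inv_mem hp) _ hg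
  simpa [mul_assoc] using this

/-- An element of order dividing 3 in a subgroup `A` of index 3 in `B` lies in every
`B`-conjugate of `A`. -/
theorem conj_mem_of_pow_three [Finite G] {A B : Subgroup G} (hAB : A ≤ B)
    (hcard : Nat.card B = 3 * Nat.card A) {g p : G} (hg : g ∈ A) (hg3 : g ^ 3 = 1)
    (hp : p ∈ B) : p⁻¹ * g * p ∈ A := by
  have h3 : (A.subgroupOf B).index = 3 := relIndex_eq_of_card hAB hcard
  have hgB : g ∈ B := hAB hg
  have hcardq : Nat.card (B ⧸ A.subgroupOf B) = 3 := by
    rw [← Subgroup.index_eq_card]; exact h3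
  have hggg : g * (g * g) = 1 := by
    have := hg3
    simpa [pow_succ, mul_assoc] using this
  have hgg : (g * g)⁻¹ = g := inv_eq_of_mul_eq_one_left hggg
  have hpA : p ∈ A → p⁻¹ * g * p ∈ A := fun h => A.mul_mem (A.mul_mem (A.inv_mem h) hg) h
  -- the four cosets of 1, p, gp, ggp
  have hpig : ∀ (a b c d : B), 
      (a⁻¹ * b ∈ A.subgroupOf B) ∨ (a⁻¹ * c ∈ A.subgroupOf B) ∨ (a⁻¹ * d ∈ A.subgroupOf B) ∨
      (b⁻¹ * c ∈ A.subgroupOf B) ∨ (b⁻¹ * d ∈ A.subgroupOf B) ∨ (c⁻¹ * d ∈ A.subgroupOf B) := by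
    intro a b c d
    by_contra hcon
    push Not at hcon
    obtain ⟨h1, h2, h3', h4, h5, h6⟩ := hcon
    let f : Fin 4 → B ⧸ A.subgroupOf B := ![(a : B ⧸ A.subgroupOf B), b, c, d]
    have hinj : Function.Injective f := by
      intro x y hxy
      fin_cases x <;> fin_cases y <;> simp [f, QuotientGroup.eq] at hxy ⊢
      · exact h1 hxy
      · exact h2 hxy
      · exact h3' hxy
      · exact h1 (by simpa using (A.subgroupOf B).inv_mem hxy)
      · exact h4 hxy
      · exact h5 hxy
      · exact h2 (by simpa using (A.subgroupOf B).inv_mem hxy)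
      · exact h4 (by simpa using (A.subgroupOf B).inv_mem hxy)
      · exact h6 hxy
      · exact h3' (by simpa using (A.subgroupOf B).inv_mem hxy)
      · exact h5 (by simpa using (A.subgroupOf B).inv_mem hxy)
      · exact h6 (by simpa using (A.subgroupOf B).inv_mem hxy)
    have := Nat.card_le_card_of_injective f hinj
    rw [hcardq] at this
    simp at this
  have := hpig 1 ⟨p, hp⟩ ⟨g * p, B.mul_mem hgB hp⟩ ⟨g * g * p, B.mul_mem (B.mul_mem hgB hgB) hp⟩
  simp only [Subgroup.mem_subgroupOf, Subgroup.coe_mul, Subgroup.coe_inv,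
    inv_one, one_mul] at this
  rcases this with h | h | h | h | h | h
  · exact hpA h
  · exact hpA (by simpa using A.mul_mem (A.inv_mem hg) h)
  · exact hpA (by simpa [mul_assoc] using A.mul_mem (A.inv_mem hg) (A.mul_mem (A.inv_mem hg) h))
  · simpa [mul_assoc] using h
  · have h' := A.inv_mem h
    have e : (p⁻¹ * (g * g * p))⁻¹ = p⁻¹ * (g * g)⁻¹ * p := by group
    rw [e, hgg] at h'
    exact h'
  · have e : p⁻¹ * g * p = (g * p)⁻¹ * (g * g * p) := by group
    rw [e]; exact h

end generic

section chain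

variable {G : Type*} [Group G]

/-- Intersection of the conjugates `s^l P s^{-l}` for `i ≤ l ≤ j`. -/
def St (P : Subgroup G) (s : G) (i j : ℤ) : Subgroup G where
  carrier := {g | ∀ l : ℤ, i ≤ l → l ≤ j → s ^ (-l) * g * s ^ l ∈ P}
  one_mem' := by intro l _ _; simp
  mul_mem' := by
    intro g h hg hh l h1 h2
    have e : s ^ (-l) * (g * h) * s ^ l = (s ^ (-l) * g * s ^ l) * (s ^ (-l) * h * s ^ l) := by
      group
    rw [e]; exact P.mul_mem (hg l h1 h2) (hh l h1 h2)
  inv_mem' := by
    intro g hg l h1 h2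
    have e : s ^ (-l) * g⁻¹ * s ^ l = (s ^ (-l) * g * s ^ l)⁻¹ := by
      group
    rw [e]; exact P.inv_mem (hg l h1 h2)

variable {P : Subgroup G} {s : G}

theorem mem_St {i j : ℤ} {g : G} :
    g ∈ St P s i j ↔ ∀ l : ℤ, i ≤ l → l ≤ j → s ^ (-l) * g * s ^ l ∈ P := Iff.rfl

theorem St_mono {i j i' j' : ℤ} (h1 : i ≤ i') (h2 : j' ≤ j) : St P s i j ≤ St P s i' j' :=
  fun _ hg l hl1 hl2 => hg l (h1.trans hl1) (hl2.trans h2)

theorem St_inter {i j i' j' : ℤ} {g : G} (h2 : i' ≤ j + 1) (hg : g ∈ St P s i j)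
    (hg' : g ∈ St P s i' j') : g ∈ St P s i j' := by
  intro l hl1 hl2
  by_cases h : l ≤ j
  · exact hg l hl1 h
  · exact hg' l (by omega) hl2

theorem St_zero (P : Subgroup G) (s : G) : St P s 0 0 = P := by
  ext g
  constructor
  · intro h; simpa using h 0 le_rfl le_rfl
  · intro h l h1 h2
    have : l = 0 := le_antisymm h2 h1
    subst this; simpa using h

theorem conj_mem_St {i j k : ℤ} {g : G} :
    s ^ k * g * s ^ (-k) ∈ St P s (i + k) (j + k) ↔ g ∈ St P s i j := by
  constructor
  · intro h l h1 h2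
    have := h (l + k) (by omega) (by omega)
    have e : s ^ (-(l + k)) * (s ^ k * g * s ^ (-k)) * s ^ (l + k) = s ^ (-l) * g * s ^ l := by
      group
    rwa [e] at this
  · intro h l h1 h2
    have := h (l - k) (by omega) (by omega)
    have e : s ^ (-l) * (s ^ k * g * s ^ (-k)) * s ^ l = s ^ (-(l - k)) * g * s ^ (l - k) := by
      group
    rwa [e]

theorem St_eq_map (i j k : ℤ) :
    St P s (i + k) (j + k) = (St P s i j).map (MulAut.conj (s ^ k)).toMonoidHom := by
  ext g
  simp only [Subgroup.mem_map, MulEquiv.coe_toMonoidHom, MulAut.conj_apply]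
  constructor
  · intro hg
    refine ⟨s ^ (-k) * g * s ^ k, ?_, by group⟩
    apply (conj_mem_St (P := P) (s := s) (i := i) (j := j) (k := k)).1
    have e : s ^ k * (s ^ (-k) * g * s ^ k) * s ^ (-k) = g := by group
    rw [e]; exact hg
  · rintro ⟨h, hh, rfl⟩
    have := (conj_mem_St (P := P) (s := s) (i := i) (j := j) (k := k)).2 hh
    have e : s ^ k * h * (s ^ k)⁻¹ = s ^ k * h * s ^ (-k) := by group
    rw [e]; exact this

theorem card_St_shift (i j k : ℤ) :
    Nat.card (St P s (i + k) (j + k)) = Nat.card (St P s i j) := by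
  rw [St_eq_map]
  exact Nat.card_congr ((MulAut.conj (s ^ k)).subgroupMap (St P s i j)).symm.toEquiv

theorem mem_St_succ {i : ℤ} {g : G} :
    g ∈ St P s i (i + 1) ↔ s ^ (-i) * g * s ^ i ∈ P ∧ s ^ (-(i + 1)) * g * s ^ (i + 1) ∈ P := by
  constructor
  · intro h; exact ⟨h i le_rfl (by omega), h (i + 1) (by omega) le_rfl⟩
  · rintro ⟨h1, h2⟩ l hl1 hl2
    rcases (show l = i ∨ l = i + 1 by omega) with rfl | rfl
    · exact h1
    · exact h2

theorem mem_St_self {i : ℤ} {g : G} : g ∈ St P s i i ↔ s ^ (-i) * g * s ^ i ∈ P := by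
  constructor
  · intro h; exact h i le_rfl le_rfl
  · intro h l hl1 hl2
    have : l = i := le_antisymm hl2 hl1
    subst this; exact h

/-- no element of order 3 in the two-point stabilizer. -/
theorem not_three_dvd [Finite G] (P : Subgroup G) (s : G)
    (hidx : Nat.card P = 3 * Nat.card (St P s 0 1))
    (htop : P ⊔ St P s 1 1 = ⊤)
    (hcore : ∀ N : Subgroup G, N.Normal → N ≤ P → N = ⊥) :
    ¬ 3 ∣ Nat.card (St P s 0 1) := by
  have hHP : St P s 0 1 ≤ P := by
    have := St_mono (P := P) (s := s) (i := 0) (j := 1) (i' := 0) (j' := 0) le_rfl (by norm_num)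
    rwa [St_zero] at this
  have hHP1 : St P s 0 1 ≤ St P s 1 1 := St_mono (by norm_num) le_rfl
  have hcard1 : Nat.card (St P s 1 1) = 3 * Nat.card (St P s 0 1) := by
    have := card_St_shift (P := P) (s := s) 0 0 1
    simp only [zero_add] at this
    rw [this, St_zero]; exact hidx
  let Y := Subgroup.closure {g : G | g ∈ St P s 0 1 ∧ g ^ 3 = 1}
  have hYH : Y ≤ St P s 0 1 := (Subgroup.closure_le _).2 (fun g hg => hg.1)
  have hnorm : ∀ B : Subgroup G, St P s 0 1 ≤ B → Nat.card B = 3 * Nat.card (St P s 0 1) →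
      B ≤ Subgroup.normalizer (Y : Set G) := by
    intro B hHB hB
    apply le_normalizer_of_conj_mem
    intro p hp
    apply conj_mem_closure
    intro g hg
    apply Subgroup.subset_closure
    refine ⟨?_, ?_⟩
    · have := conj_mem_of_pow_three hHB hB hg.1 hg.2 (B.inv_mem hp)
      simpa using this
    · rw [conj_pow, hg.2]; simp
  have hYn : Subgroup.normalizer (Y : Set G) = ⊤ := by
    apply top_unique
    rw [← htop]
    exact sup_le (hnorm P hHP hidx) (hnorm _ hHP1 hcard1)
  have hYnormal : Y.Normal := Subgroup.normalizer_eq_top_iff.1 hYn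
  have hYbot : Y = ⊥ := hcore Y hYnormal (hYH.trans hHP)
  intro h3
  have : Fact (Nat.Prime 3) := ⟨Nat.prime_three⟩
  obtain ⟨g, hg⟩ := exists_prime_orderOf_dvd_card' (G := St P s 0 1) 3 h3
  have hg3 : (g : G) ^ 3 = 1 := by
    have := pow_orderOf_eq_one g
    rw [hg] at this
    exact_mod_cast congrArg Subtype.val this
  have hgY : (g : G) ∈ Y := Subgroup.subset_closure ⟨g.2, hg3⟩
  rw [hYbot, Subgroup.mem_bot] at hgY
  have : g = 1 := Subtype.ext hgY
  rw [this, orderOf_one] at hg
  norm_num at hg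

/-- Either `|P| = 3`, or the shift can be chosen so that the chain does not stop at once. -/
theorem exists_good_shift [Finite G] (P : Subgroup G) (s : G)
    (hidx : Nat.card P = 3 * Nat.card (St P s 0 1))
    (htop : P ⊔ St P s 1 1 = ⊤)
    (hcore : ∀ N : Subgroup G, N.Normal → N ≤ P → N = ⊥) :
    Nat.card P = 3 ∨ ∃ s' : G, Nat.card P = 3 * Nat.card (St P s' 0 1) ∧
      P ⊔ St P s' 1 1 = ⊤ ∧ ¬ 3 ∣ Nat.card (St P s' 0 1) ∧ ¬ (St P s' 0 1 ≤ St P s' 0 2) := by
  have h3 := not_three_dvd P s hidx htop hcore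
  have hHP : St P s 0 1 ≤ P := by
    have := St_mono (P := P) (s := s) (i := 0) (j := 1) (i' := 0) (j' := 0) le_rfl (by norm_num)
    rwa [St_zero] at this
  have memH : ∀ g, g ∈ St P s 0 1 ↔ g ∈ P ∧ s⁻¹ * g * s ∈ P := by
    intro g
    have := mem_St_succ (P := P) (s := s) (i := 0) (g := g)
    simpa using this
  have memHm : ∀ g, g ∈ St P s (-1) 0 ↔ s * g * s⁻¹ ∈ P ∧ g ∈ P := by
    intro g
    have := mem_St_succ (P := P) (s := s) (i := -1) (g := g)
    simpa using this
  have hcardm : Nat.card (St P s (-1) 0) = Nat.card (St P s 0 1) := by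
    have := card_St_shift (P := P) (s := s) 0 1 (-1)
    simpa using this
  by_cases hn : ∀ p ∈ P, ∀ g ∈ St P s 0 1, p * g * p⁻¹ ∈ St P s 0 1
  · left
    have hnormal : ((St P s 0 1).subgroupOf P).Normal :=
      (Subgroup.normal_subgroupOf_iff_le_normalizer hHP).2 (le_normalizer_of_conj_mem hn)
    have hindex : ((St P s 0 1).subgroupOf P).index = 3 := relIndex_eq_of_card hHP hidx
    have hle : St P s (-1) 0 ≤ St P s 0 1 := by
      intro g hg
      have hgP : g ∈ P := ((memHm g).1 hg).2
      have hpow : g ^ 3 ∈ St P s 0 1 := by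
        have := Subgroup.pow_index_mem ((St P s 0 1).subgroupOf P) (⟨g, hgP⟩ : P)
        rw [hindex] at this
        simpa [Subgroup.mem_subgroupOf] using this
      have hord : orderOf g ∣ Nat.card (St P s (-1) 0) := by
        have := orderOf_dvd_natCard (⟨g, hg⟩ : St P s (-1) 0)
        rwa [Subgroup.orderOf_mk] at this
      have hcop : Nat.Coprime 3 (orderOf g) := by
        rw [Nat.Prime.coprime_iff_not_dvd Nat.prime_three]
        intro h
        exact h3 (hcardm ▸ (h.trans hord))
      obtain ⟨m, hm⟩ := exists_pow_eq_self_of_coprime hcop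
      rw [← hm]; exact Subgroup.pow_mem _ hpow m
    have heq : St P s (-1) 0 = St P s 0 1 := Subgroup.eq_of_le_of_card_ge hle (by rw [hcardm])
    have hs : s ∈ Subgroup.normalizer (St P s 0 1 : Set G) := by
      rw [Subgroup.mem_normalizer_iff]
      intro g
      have := conj_mem_St (P := P) (s := s) (i := -1) (j := 0) (k := 1) (g := g)
      simp only [zpow_one, zpow_neg] at this
      norm_num at this
      rw [heq] at this
      exact this.symm
    have hPn : P ≤ Subgroup.normalizer (St P s 0 1 : Set G) := le_normalizer_of_conj_mem hn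
    have hP1n : St P s 1 1 ≤ Subgroup.normalizer (St P s 0 1 : Set G) := by
      intro q hq
      have hq' : s⁻¹ * q * s ∈ P := by
        have := (mem_St_self (P := P) (s := s) (i := 1) (g := q)).1 hq
        simpa using this
      have e : q = s * (s⁻¹ * q * s) * s⁻¹ := by group
      rw [e]
      exact Subgroup.mul_mem _ (Subgroup.mul_mem _ hs (hPn hq')) (Subgroup.inv_mem _ hs)
    have hnt : Subgroup.normalizer (St P s 0 1 : Set G) = ⊤ :=
      top_unique (htop ▸ sup_le hPn hP1n)
    have hbot := hcore _ (Subgroup.normalizer_eq_top_iff.1 hnt) hHP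
    rw [hidx, hbot]; simp
  · right
    push Not at hn
    obtain ⟨p1, hp1, g1, hg1, hg1'⟩ := hn
    have hex : ∃ p ∈ P, ∃ h ∈ St P s (-1) 0, p⁻¹ * h * p ∉ St P s 0 1 := by
      by_cases hsub : St P s (-1) 0 ≤ St P s 0 1
      · have heq : St P s (-1) 0 = St P s 0 1 :=
          Subgroup.eq_of_le_of_card_ge hsub (by rw [hcardm])
        refine ⟨p1⁻¹, P.inv_mem hp1, g1, heq ▸ hg1, ?_⟩
        simpa using hg1'
      · obtain ⟨h, hh, hh'⟩ := SetLike.not_le_iff_exists.1 hsub
        exact ⟨1, P.one_mem, h, hh, by simpa using hh'⟩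
    obtain ⟨p, hp, h, hh, hh'⟩ := hex
    have hconj : ∀ g : G, (s * p)⁻¹ * g * (s * p) ∈ P ↔ s⁻¹ * g * s ∈ P := by
      intro g
      have e : (s * p)⁻¹ * g * (s * p) = p⁻¹ * (s⁻¹ * g * s) * p := by group
      rw [e]
      constructor
      · intro hx
        have := P.mul_mem (P.mul_mem hp hx) (P.inv_mem hp)
        simpa [mul_assoc] using this
      · intro hx
        exact P.mul_mem (P.mul_mem (P.inv_mem hp) hx) hp
    have memH' : ∀ g, g ∈ St P (s * p) 0 1 ↔ g ∈ P ∧ s⁻¹ * g * s ∈ P := by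
      intro g
      have := mem_St_succ (P := P) (s := s * p) (i := 0) (g := g)
      rw [← hconj g]
      simpa using this
    have hH' : St P (s * p) 0 1 = St P s 0 1 := by
      ext g; rw [memH', memH]
    have hP1' : St P (s * p) 1 1 = St P s 1 1 := by
      ext g
      have h1 := mem_St_self (P := P) (s := s * p) (i := 1) (g := g)
      have h2 := mem_St_self (P := P) (s := s) (i := 1) (g := g)
      simp only [zpow_neg, zpow_one] at h1 h2
      rw [h1, h2, hconj]
    refine ⟨s * p, by rw [hH']; exact hidx, by rw [hP1']; exact htop, by rw [hH']; exact h3, ?_⟩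
    intro hle
    have hh0 : s * h * s⁻¹ ∈ St P s 0 1 := by
      have := (conj_mem_St (P := P) (s := s) (i := -1) (j := 0) (k := 1) (g := h)).2 hh
      simpa using this
    have hmem := hle (hH' ▸ hh0)
    have h2 := hmem 2 (by norm_num) le_rfl
    have e2 : (s * p) ^ (2 : ℤ) = s * p * (s * p) := by
      rw [show (2 : ℤ) = ((2 : ℕ) : ℤ) by norm_num, zpow_natCast, pow_two]
    have em2 : (s * p) ^ (-2 : ℤ) = (s * p)⁻¹ * (s * p)⁻¹ := by
      rw [zpow_neg, e2, mul_inv_rev]
    rw [e2, em2] at h2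
    have e : (s * p)⁻¹ * (s * p)⁻¹ * (s * h * s⁻¹) * (s * p * (s * p))
        = p⁻¹ * (s⁻¹ * (p⁻¹ * h * p) * s) * p := by
      group
    rw [e] at h2
    have h3' : s⁻¹ * (p⁻¹ * h * p) * s ∈ P := by
      have := P.mul_mem (P.mul_mem hp h2) (P.inv_mem hp)
      simpa [mul_assoc] using this
    have h4 : p⁻¹ * h * p ∈ P := P.mul_mem (P.mul_mem (P.inv_mem hp) ((memHm h).1 hh).2) hp
    exact hh' ((memH _).2 ⟨h4, h3'⟩)

/-- The chain structure: `G` acts regularly on non-canonical `t`-arcs. -/
structure Chain (P : Subgroup G) (s : G) (t : ℕ) : Prop where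
  two_le : 2 ≤ t
  card_zero : ∀ i : ℤ, Nat.card (St P s i i) = 3 * 2 ^ (t - 1)
  card_pos : ∀ (i : ℤ) (d : ℕ), 1 ≤ d → d ≤ t → Nat.card (St P s i (i + d)) = 2 ^ (t - d)
  top : St P s 0 0 ⊔ St P s 1 1 = ⊤
  core : ∀ N : Subgroup G, N.Normal → N ≤ St P s 0 0 → N = ⊥

theorem chain_of_good_shift [Finite G] (P : Subgroup G) (s : G)
    (hidx : Nat.card P = 3 * Nat.card (St P s 0 1))
    (htop : P ⊔ St P s 1 1 = ⊤)
    (hcore : ∀ N : Subgroup G, N.Normal → N ≤ P → N = ⊥)
    (h3 : ¬ 3 ∣ Nat.card (St P s 0 1)) (hgood : ¬ (St P s 0 1 ≤ St P s 0 2)) :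
    ∃ t : ℕ, Chain P s t := by
  classical
  set f : ℕ → ℕ := fun d => Nat.card (St P s 0 (d : ℤ)) with hf
  have fdef : ∀ d : ℕ, Nat.card (St P s 0 (d : ℤ)) = f d := fun d => rfl
  have fpos : ∀ d, 0 < f d := fun d => Nat.card_pos
  have fshift : ∀ (i : ℤ) (d : ℕ), Nat.card (St P s i (i + d)) = f d := by
    intro i d
    have := card_St_shift (P := P) (s := s) 0 (d : ℤ) i
    simp only [zero_add] at this
    rw [add_comm]; exact this
  have f1 : Nat.card (St P s 0 1) = f 1 := by rw [← fdef 1]; norm_num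
  have f2 : Nat.card (St P s 0 2) = f 2 := by rw [← fdef 2]; norm_num
  have f0 : f 0 = 3 * f 1 := by
    rw [← f1, ← fdef 0, Nat.cast_zero, St_zero]; exact hidx
  have fdvd : ∀ d, f (d + 1) ∣ f d := fun d =>
    Subgroup.card_dvd_of_le (St_mono le_rfl (by push_cast; omega))
  have f3 : ∀ d, 1 ≤ d → ¬ 3 ∣ f d := by
    intro d hd h
    have h1 : f d ∣ f 1 := Subgroup.card_dvd_of_le (St_mono le_rfl (by exact_mod_cast hd))
    exact h3 (f1 ▸ h.trans h1)
  have fle : ∀ d, 1 ≤ d → f d ≤ 3 * f (d + 1) := by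
    intro d hd
    have hAC : St P s 0 (d : ℤ) ≤ St P s d d := St_mono (by positivity) le_rfl
    have hBC : St P s (d : ℤ) ((d : ℤ) + 1) ≤ St P s d d := St_mono le_rfl (by omega)
    have hcardC : Nat.card (St P s (d : ℤ) d) = 3 * Nat.card (St P s (d : ℤ) ((d : ℤ) + 1)) := by
      have h1 := fshift d 0
      have h2 := fshift d 1
      simp only [Nat.cast_zero, add_zero, Nat.cast_one] at h1 h2
      rw [h1, h2]; exact f0
    have hrel : (St P s (d : ℤ) ((d : ℤ) + 1)).relIndex (St P s d d) = 3 :=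
      relIndex_eq_of_card hBC hcardC
    have hle := Subgroup.relIndex_le_of_le_right (H := St P s (d : ℤ) ((d : ℤ) + 1)) hAC
      (by rw [hrel]; norm_num)
    rw [hrel] at hle
    have hinf : St P s (d : ℤ) ((d : ℤ) + 1) ⊓ St P s 0 d = St P s 0 ((d + 1 : ℕ) : ℤ) := by
      apply le_antisymm
      · intro g hg
        have := St_inter (P := P) (s := s) (i := 0) (j := d) (i' := d) (j' := (d : ℤ) + 1)
          (by omega) hg.2 hg.1
        exact_mod_cast this
      · exact le_inf (St_mono (by positivity) (by push_cast; omega))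
          (St_mono le_rfl (by push_cast; omega))
    have hcm := card_mul_relIndex' (A := St P s 0 (d : ℤ))
      (B := St P s (d : ℤ) ((d : ℤ) + 1) ⊓ St P s 0 d) inf_le_right
    rw [Subgroup.inf_relIndex_right, hinf, fdef, fdef] at hcm
    calc f d = f (d + 1) * _ := hcm.symm
      _ ≤ f (d + 1) * 3 := Nat.mul_le_mul_left _ hle
      _ = 3 * f (d + 1) := mul_comm _ _
  have fdich : ∀ d, 1 ≤ d → f d = f (d + 1) ∨ f d = 2 * f (d + 1) := by
    intro d hd
    obtain ⟨q, hq⟩ := fdvd d
    have h1 := fle d hd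
    have h2 := f3 d hd
    have hp := fpos (d + 1)
    have hq3 : q ≤ 3 := by
      rw [hq] at h1
      by_contra hcon
      push Not at hcon
      nlinarith
    have hq0 : q ≠ 0 := by
      rintro rfl
      have := fpos d
      rw [hq] at this; simp at this
    have hqn3 : q ≠ 3 := by
      rintro rfl
      exact h2 ⟨f (d + 1), by rw [hq]; ring⟩
    interval_cases q
    · exact absurd rfl hq0
    · left; rw [hq]; ring
    · right; rw [hq]; ring
    · exact absurd rfl hqn3
  have fstab : ∀ d, f d = f (d + 1) → f (d + 1) = f (d + 2) := by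
    intro d hd
    have heq : St P s 0 ((d + 1 : ℕ) : ℤ) = St P s 0 (d : ℤ) :=
      Subgroup.eq_of_le_of_card_ge (St_mono le_rfl (by push_cast; omega))
        (by rw [fdef, fdef, hd])
    have heq2 : St P s 0 ((d + 2 : ℕ) : ℤ) = St P s 0 ((d + 1 : ℕ) : ℤ) := by
      apply le_antisymm (St_mono le_rfl (by push_cast; omega))
      intro g hg
      have hg1 : g ∈ St P s (0 + 1) ((d : ℤ) + 1) :=
        St_mono (by norm_num) (by push_cast; omega) hg
      have e : s ^ (1 : ℤ) * (s⁻¹ * g * s) * s ^ (-(1 : ℤ)) = g := by group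
      have hc := (conj_mem_St (P := P) (s := s) (i := 0) (j := d) (k := 1)
        (g := s⁻¹ * g * s)).1 (by rw [e]; exact hg1)
      rw [← heq] at hc
      have hc2 := (conj_mem_St (P := P) (s := s) (i := 0) (j := ((d + 1 : ℕ) : ℤ)) (k := 1)
        (g := s⁻¹ * g * s)).2 hc
      rw [e] at hc2
      have := St_inter (P := P) (s := s) (i := 0) (j := ((d + 1 : ℕ) : ℤ)) (i' := 0 + 1)
        (j' := ((d + 1 : ℕ) : ℤ) + 1) (by push_cast; omega) hg hc2
      have e2 : ((d + 1 : ℕ) : ℤ) + 1 = ((d + 2 : ℕ) : ℤ) := by push_cast; ring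
      rw [e2] at this
      exact this
    rw [← fdef (d + 1), ← fdef (d + 2), heq2]
  have hex : ∃ d, 1 ≤ d ∧ f d = f (d + 1) := by
    by_contra hcon
    push Not at hcon
    have h2 : ∀ d, 1 ≤ d → f d = 2 * f (d + 1) := fun d hd =>
      (fdich d hd).resolve_left (hcon d hd)
    have h4 : ∀ n, f 1 = 2 ^ n * f (n + 1) := by
      intro n
      induction n with
      | zero => simp
      | succ n ih => rw [ih, h2 (n + 1) (by omega)]; ring
    have h5 := h4 (f 1)
    have hlt : f 1 < 2 ^ (f 1) := Nat.lt_two_pow_self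
    have h6 := fpos (f 1 + 1)
    nlinarith
  let t := Nat.find hex
  have ht1 : 1 ≤ t := (Nat.find_spec hex).1
  have htt : f t = f (t + 1) := (Nat.find_spec hex).2
  have hmin : ∀ d, 1 ≤ d → d < t → f d = 2 * f (d + 1) := by
    intro d hd hdt
    exact (fdich d hd).resolve_left (fun h => Nat.find_min hex hdt ⟨hd, h⟩)
  have ht2 : 2 ≤ t := by
    by_contra h
    have ht : t = 1 := by omega
    rw [ht] at htt
    have heq : St P s 0 2 = St P s 0 1 :=
      Subgroup.eq_of_le_of_card_ge (St_mono le_rfl (by norm_num)) (by rw [f1, f2, htt])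
    exact hgood (heq ▸ le_rfl)
  have fpow : ∀ e, e ≤ t - 1 → f (t - e) = 2 ^ e * f t := by
    intro e he
    induction e with
    | zero => simp
    | succ e ih =>
      have := hmin (t - (e + 1)) (by omega) (by omega)
      rw [this, show t - (e + 1) + 1 = t - e by omega, ih (by omega)]; ring
  have hN1 : St P s 1 ((t : ℤ) + 1) = St P s 0 t := by
    have c1 : Nat.card (St P s 0 ((t : ℤ) + 1)) = f (t + 1) := by
      rw [← fdef (t + 1)]; push_cast; rfl
    have h01 : St P s 0 ((t : ℤ) + 1) = St P s 0 t :=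
      Subgroup.eq_of_le_of_card_ge (St_mono le_rfl (by omega)) (by rw [c1, fdef, htt])
    have h02 : St P s 0 ((t : ℤ) + 1) = St P s 1 ((t : ℤ) + 1) := by
      refine Subgroup.eq_of_le_of_card_ge (St_mono (by norm_num) le_rfl) ?_
      have c2 : Nat.card (St P s 1 ((t : ℤ) + 1)) = f t := by
        have := fshift 1 t
        rwa [add_comm] at this
      rw [c1, c2, htt]
    rw [← h02, h01]
  have hsN : ∀ g, g ∈ St P s 0 t ↔ s * g * s⁻¹ ∈ St P s 0 t := by
    intro g
    have := conj_mem_St (P := P) (s := s) (i := 0) (j := t) (k := 1) (g := g)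
    simp only [zpow_one, zpow_neg, zero_add] at this
    rw [hN1] at this
    exact this.symm
  have hs_norm : s ∈ Subgroup.normalizer (St P s 0 t : Set G) := by
    rw [Subgroup.mem_normalizer_iff]; exact hsN
  have hNi : ∀ i : ℤ, St P s i (i + t) = St P s 0 t := by
    intro i
    have hsi : s ^ i ∈ Subgroup.normalizer (St P s 0 t : Set G) :=
      Subgroup.zpow_mem _ hs_norm i
    ext g
    have h1 := conj_mem_St (P := P) (s := s) (i := 0) (j := t) (k := i)
      (g := s ^ (-i) * g * s ^ i)
    have e : s ^ i * (s ^ (-i) * g * s ^ i) * s ^ (-i) = g := by group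
    rw [e, zero_add, add_comm] at h1
    rw [h1]
    have h2 := (Subgroup.mem_normalizer_iff.1 hsi) (s ^ (-i) * g * s ^ i)
    have e2 : s ^ i * (s ^ (-i) * g * s ^ i) * (s ^ i)⁻¹ = g := by group
    rw [e2] at h2
    exact h2
  have hclaim : ∀ k, k ≤ t - 1 → ∀ i : ℤ,
      St P s i (i + ((t - 1 - k : ℕ) : ℤ)) ≤ Subgroup.normalizer (St P s 0 t : Set G) := by
    intro k
    induction k with
    | zero =>
      intro _ i
      have hNle : St P s 0 t ≤ St P s i (i + ((t - 1 - 0 : ℕ) : ℤ)) := by
        rw [← hNi (i - 1)]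
        exact St_mono (by omega) (by omega)
      apply le_normalizer_of_index_two hNle
      rw [fshift i (t - 1 - 0), fdef]
      have := fpow 1 (by omega)
      simpa using this
    | succ k ih =>
      intro hk i
      have ihk := ih (by omega)
      obtain ⟨d, hd⟩ : ∃ d, d = t - 1 - (k + 1) := ⟨_, rfl⟩
      have hd1 : t - 1 - k = d + 1 := by omega
      rw [← hd]
      have hA : St P s (i - 1) (i + d) ≤ Subgroup.normalizer (St P s 0 t : Set G) := by
        have := ihk (i - 1)
        rw [hd1] at this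
        have e : i - 1 + ((d + 1 : ℕ) : ℤ) = i + d := by push_cast; ring
        rwa [e] at this
      have hB : St P s i (i + d + 1) ≤ Subgroup.normalizer (St P s 0 t : Set G) := by
        have := ihk i
        rw [hd1] at this
        have e : i + ((d + 1 : ℕ) : ℤ) = i + d + 1 := by push_cast; ring
        rwa [e] at this
      have hAC : St P s (i - 1) (i + d) ≤ St P s i (i + d) := St_mono (by omega) le_rfl
      have hBC : St P s i (i + d + 1) ≤ St P s i (i + d) := St_mono le_rfl (by omega)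
      have cA : Nat.card (St P s (i - 1) (i + d)) = f (d + 1) := by
        have := fshift (i - 1) (d + 1)
        have e : i - 1 + ((d + 1 : ℕ) : ℤ) = i + d := by push_cast; ring
        rwa [e] at this
      have cB : Nat.card (St P s i (i + d + 1)) = f (d + 1) := by
        have := fshift i (d + 1)
        have e : i + ((d + 1 : ℕ) : ℤ) = i + d + 1 := by push_cast; ring
        rwa [e] at this
      have cC : Nat.card (St P s i (i + d)) = f d := fshift i d
      have hne : St P s (i - 1) (i + d) ≠ St P s i (i + d + 1) := by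
        intro heq
        have hAle : St P s (i - 1) (i + d) ≤ St P s (i - 1) (i + d + 1) := by
          intro g hg
          exact St_inter (by omega) hg (heq ▸ hg)
        have cAB : Nat.card (St P s (i - 1) (i + d + 1)) = f (d + 2) := by
          have := fshift (i - 1) (d + 2)
          have e : i - 1 + ((d + 2 : ℕ) : ℤ) = i + d + 1 := by push_cast; ring
          rwa [e] at this
        have h7 := Nat.le_of_dvd Nat.card_pos (Subgroup.card_dvd_of_le hAle)
        rw [cA, cAB] at h7
        have h8 : f (d + 1) = 2 * f (d + 2) := hmin (d + 1) (by omega) (by omega)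
        have h9 := fpos (d + 2)
        omega
      have hq : ∃ q : ℕ, q.Prime ∧ f d = q * f (d + 1) := by
        by_cases hd0 : d = 0
        · exact ⟨3, Nat.prime_three, by rw [hd0]; exact f0⟩
        · exact ⟨2, Nat.prime_two, hmin d (by omega) (by omega)⟩
      obtain ⟨q, hq, hfq⟩ := hq
      have := le_sup_of_prime_index hAC hBC hne (by rw [cA, cB]) hq (by rw [cC, cA]; exact hfq)
      exact this.trans (sup_le hA hB)
  have hP0 : St P s 0 0 ≤ Subgroup.normalizer (St P s 0 t : Set G) := by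
    have := hclaim (t - 1) le_rfl 0
    simpa using this
  have hP1 : St P s 1 1 ≤ Subgroup.normalizer (St P s 0 t : Set G) := by
    have := hclaim (t - 1) le_rfl 1
    simpa using this
  have htop' : St P s 0 0 ⊔ St P s 1 1 = ⊤ := by rw [St_zero]; exact htop
  have hNn : Subgroup.normalizer (St P s 0 t : Set G) = ⊤ :=
    top_unique (htop' ▸ sup_le hP0 hP1)
  have hNP : St P s 0 t ≤ P := by
    have := St_mono (P := P) (s := s) (i := 0) (j := t) (i' := 0) (j' := 0) le_rfl
      (by positivity)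
    rwa [St_zero] at this
  have hNbot : St P s 0 t = ⊥ := hcore _ (Subgroup.normalizer_eq_top_iff.1 hNn) hNP
  have ft : f t = 1 := by rw [← fdef, hNbot]; simp
  refine ⟨t, ht2, ?_, ?_, htop', by rw [St_zero]; exact hcore⟩
  · intro i
    have h1 := fshift i 0
    simp only [Nat.cast_zero, add_zero] at h1
    rw [h1, f0]
    have h2 := fpow (t - 1) le_rfl
    rw [show t - (t - 1) = 1 by omega, ft, mul_one] at h2
    rw [h2]
  · intro i d hd1 hdt
    rw [fshift i d]
    have h2 := fpow (t - d) (by omega)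
    rw [show t - (t - d) = d by omega, ft, mul_one] at h2
    exact h2

end chain

end Cfsg.Agent.Lib.Helper89.Sims3
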