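import Cfsg.Agent.Lib.Helper89.SimsA

/-!
# Sims' theorem on suborbits of length 3, part B (helper89)

From the chain structure `Chain P s t` of part A we derive `t ≤ 5`.
The translates `xx s x0 i = s^i x0 s^{-i}` of the involution `x0` generating
`St 0 (t-1)` generate all the arc stabilizers; the commuting pattern of these
involutions bounds `t`.
-/

set_option autoImplicit false

namespace Cfsg.Agent.Lib.Helper89.Sims3

section chainB

variable {G : Type*} [Group G] {P : Subgroup G} {s : G} {t : ℕ}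

theorem Chain.card_len (hC : Chain P s t) (a b : ℤ) (e : ℕ) (h1 : a + 1 ≤ b)
    (h2 : b - a + e = t) : Nat.card (St P s a b) = 2 ^ e := by
  obtain ⟨d, hd⟩ : ∃ d : ℕ, b = a + d := ⟨(b - a).toNat, by omega⟩
  subst hd
  rw [hC.card_pos a d (by omega) (by omega)]
  congr 1
  omega

theorem Chain.St_bot [Finite G] (hC : Chain P s t) {a b : ℤ} (h : a + t ≤ b) :
    St P s a b = ⊥ := by
  have h1 : St P s a (a + t) = ⊥ := by
    apply Subgroup.eq_bot_of_card_eq
    have := hC.card_pos a t (by have := hC.two_le; omega) le_rfl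
    simpa using this
  exact le_bot_iff.1 (h1 ▸ St_mono le_rfl h)

theorem Chain.top_shift (hC : Chain P s t) (i : ℤ) :
    St P s i i ⊔ St P s (i + 1) (i + 1) = ⊤ := by
  have e1 : St P s i i = (St P s 0 0).map (MulAut.conj (s ^ i)).toMonoidHom := by
    rw [← St_eq_map, zero_add]
  have e2 : St P s (i + 1) (i + 1) = (St P s 1 1).map (MulAut.conj (s ^ i)).toMonoidHom := by
    rw [← St_eq_map, add_comm]
  rw [e1, e2, ← Subgroup.map_sup, hC.top]
  exact Subgroup.map_top_of_surjective _ (MulEquiv.surjective _)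

theorem Chain.core_shift (hC : Chain P s t) (i : ℤ) (N : Subgroup G) (hN : N.Normal)
    (hle : N ≤ St P s i i) : N = ⊥ := by
  apply hC.core N hN
  intro g hg
  have h1 : s ^ i * g * (s ^ i)⁻¹ ∈ N := hN.conj_mem g hg (s ^ i)
  have h2 := hle h1
  have e : s ^ i * g * (s ^ i)⁻¹ = s ^ i * g * s ^ (-i) := by group
  rw [e] at h2
  have h3 : s ^ i * g * s ^ (-i) ∈ St P s (0 + i) (0 + i) := by rw [zero_add]; exact h2
  exact (conj_mem_St (P := P) (s := s) (i := 0) (j := 0) (k := i) (g := g)).1 h3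

/-- the translates of the involution. -/
def xx (s x0 : G) (i : ℤ) : G := s ^ i * x0 * s ^ (-i)

theorem xx_shift (s x0 : G) (i k : ℤ) : s ^ k * xx s x0 i * s ^ (-k) = xx s x0 (i + k) := by
  simp only [xx]
  group

theorem xx_congr (s x0 : G) {i j : ℤ} (h : i = j) : xx s x0 i = xx s x0 j := by rw [h]

theorem commute_xx_shift (s x0 : G) (i j k : ℤ) :
    Commute (xx s x0 (i + k)) (xx s x0 (j + k)) ↔ Commute (xx s x0 i) (xx s x0 j) := by
  rw [← xx_shift, ← xx_shift]
  have e : s ^ (-k) = (s ^ k)⁻¹ := zpow_neg s k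
  rw [e]
  exact Commute.conj_iff (s ^ k)

/-- data: a chain together with the involution generating `St 0 (t-1)`. -/
structure XData (P : Subgroup G) (s : G) (t : ℕ) (x0 : G) : Prop where
  chain : Chain P s t
  mem : x0 ∈ St P s 0 ((t : ℤ) - 1)
  ne_one : x0 ≠ 1

theorem Chain.exists_xdata [Finite G] (hC : Chain P s t) : ∃ x0, XData P s t x0 := by
  have hcard : Nat.card (St P s 0 ((t : ℤ) - 1)) = 2 ^ 1 :=
    hC.card_len 0 _ 1 (by have := hC.two_le; omega) (by omega)
  have : Nontrivial (St P s 0 ((t : ℤ) - 1)) := by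
    rw [← Finite.one_lt_card_iff_nontrivial, hcard]; norm_num
  obtain ⟨x, hx⟩ := exists_ne (1 : St P s 0 ((t : ℤ) - 1))
  exact ⟨x, hC, x.2, fun h => hx (Subtype.ext h)⟩

/-- the subgroup generated by `x_i, …, x_j`. -/
def XX (s x0 : G) (i j : ℤ) : Subgroup G :=
  Subgroup.closure {g | ∃ k : ℤ, i ≤ k ∧ k ≤ j ∧ g = xx s x0 k}

theorem xx_mem_XX (s x0 : G) {i j k : ℤ} (h1 : i ≤ k) (h2 : k ≤ j) : xx s x0 k ∈ XX s x0 i j :=
  Subgroup.subset_closure ⟨k, h1, h2, rfl⟩

theorem XX_mono (s x0 : G) {i j i' j' : ℤ} (h1 : i' ≤ i) (h2 : j ≤ j') :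
    XX s x0 i j ≤ XX s x0 i' j' := by
  apply Subgroup.closure_mono
  rintro g ⟨k, hk1, hk2, rfl⟩
  exact ⟨k, h1.trans hk1, hk2.trans h2, rfl⟩

theorem commute_of_mem_XX {s x0 y : G} {i j : ℤ}
    (h : ∀ k, i ≤ k → k ≤ j → Commute y (xx s x0 k)) {g : G} (hg : g ∈ XX s x0 i j) :
    Commute y g := by
  have hle : XX s x0 i j ≤ Subgroup.centralizer {y} := by
    rw [XX, Subgroup.closure_le]
    rintro _ ⟨k, h1, h2, rfl⟩
    rw [SetLike.mem_coe, Subgroup.mem_centralizer_iff]
    intro z hz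
    rw [Set.mem_singleton_iff.1 hz]
    exact (h k h1 h2).eq
  exact Subgroup.mem_centralizer_iff.1 (hle hg) y rfl

/-- a group generated by pairwise commuting involutions has exponent two. -/
theorem sq_of_comm {S : Set G} (hS : ∀ x ∈ S, ∀ y ∈ S, Commute x y)
    (h2 : ∀ x ∈ S, x * x = 1) : ∀ g ∈ Subgroup.closure S, g * g = 1 := by
  have h1 : Subgroup.closure S ≤ Subgroup.centralizer S := by
    rw [Subgroup.closure_le]
    intro x hx
    rw [SetLike.mem_coe, Subgroup.mem_centralizer_iff]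
    intro y hy
    exact (hS y hy x hx).eq
  have h3 : Subgroup.closure S ≤ Subgroup.centralizer (Subgroup.closure S : Set G) := by
    rw [Subgroup.closure_le]
    intro x hx
    rw [SetLike.mem_coe, Subgroup.mem_centralizer_iff]
    intro y hy
    exact ((Subgroup.mem_centralizer_iff.1 (h1 hy)) x hx).symm
  intro g hg
  induction hg using Subgroup.closure_induction with
  | mem x hx => exact h2 x hx
  | one => simp
  | mul x y hx hy ihx ihy =>
    have hc : y * x = x * y := (Subgroup.mem_centralizer_iff.1 (h3 hx)) y hy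
    calc x * y * (x * y) = x * (y * x) * y := by group
      _ = x * (x * y) * y := by rw [hc]
      _ = (x * x) * (y * y) := by group
      _ = 1 := by rw [ihx, ihy, one_mul]
  | inv x hx ih =>
    have : x⁻¹ = x := inv_eq_of_mul_eq_one_left ih
    rw [this, ih]

theorem commute_of_mul {y a z : G} (h1 : Commute y (a * z)) (h2 : Commute y z) :
    Commute y a := by
  have := h1.mul_right h2.inv_right
  simpa [mul_assoc] using this

theorem conj_conj_self {a g : G} (h : a * a = 1) : a * (a * g * a⁻¹) * a⁻¹ = g := by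
  have ha : a⁻¹ = a := inv_eq_of_mul_eq_one_left h
  rw [ha]
  calc a * (a * g * a) * a = (a * a) * g * (a * a) := by group
    _ = g := by rw [h]; group

theorem exists_central [Finite G] (H : Subgroup G) (e : ℕ)
    (hcard : Nat.card H = 2 ^ (e + 1)) :
    ∃ z ∈ H, z ≠ 1 ∧ ∀ y ∈ H, Commute z y := by
  have : Fact (Nat.Prime 2) := ⟨Nat.prime_two⟩
  have hp : IsPGroup 2 H := IsPGroup.of_card hcard
  have : Nontrivial H := by
    rw [← Finite.one_lt_card_iff_nontrivial, hcard]
    exact Nat.one_lt_two_pow (by omega)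
  have := hp.center_nontrivial
  obtain ⟨z, hz⟩ := exists_ne (1 : Subgroup.center H)
  refine ⟨((z : H) : G), (z : H).2, ?_, ?_⟩
  · intro h
    apply hz
    apply Subtype.ext
    apply Subtype.ext
    exact h
  · intro y hy
    have := Subgroup.mem_center_iff.1 z.2 ⟨y, hy⟩
    have h2 := congrArg Subtype.val this
    exact h2.symm

theorem eq_of_card_two [Finite G] (H : Subgroup G) (hcard : Nat.card H = 2) {a b : G}
    (ha : a ∈ H) (hb : b ∈ H) (ha1 : a ≠ 1) (hb1 : b ≠ 1) : a * b = 1 := by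
  have h := mul_mem_of_index_two (A := H) (B := ⊥) bot_le (by simpa using hcard) ha hb
    (by simpa using ha1) (by simpa using hb1)
  simpa using h

namespace XData

variable [Finite G] {x0 : G}

theorem sq (hX : XData P s t x0) : x0 * x0 = 1 := by
  have hcard : Nat.card (St P s 0 ((t : ℤ) - 1)) = 2 ^ 1 :=
    hX.chain.card_len 0 _ 1 (by have := hX.chain.two_le; omega) (by omega)
  have h1 := pow_card_eq_one' (G := St P s 0 ((t : ℤ) - 1)) (x := ⟨x0, hX.mem⟩)
  rw [hcard] at h1
  have h2 := congrArg Subtype.val h1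
  simpa [pow_two] using h2

theorem xx_mul_self (hX : XData P s t x0) (i : ℤ) : xx s x0 i * xx s x0 i = 1 := by
  unfold xx
  have h := hX.sq
  calc s ^ i * x0 * s ^ (-i) * (s ^ i * x0 * s ^ (-i)) = s ^ i * (x0 * x0) * s ^ (-i) := by
        group
    _ = 1 := by rw [h]; group

theorem xx_inv (hX : XData P s t x0) (i : ℤ) : (xx s x0 i)⁻¹ = xx s x0 i :=
  inv_eq_of_mul_eq_one_left (hX.xx_mul_self i)

theorem xx_ne_one (hX : XData P s t x0) (i : ℤ) : xx s x0 i ≠ 1 := by
  intro h
  apply hX.ne_one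
  unfold xx at h
  have e : x0 = s ^ (-i) * (s ^ i * x0 * s ^ (-i)) * s ^ i := by group
  rw [e, h]; group

theorem xx_mem (hX : XData P s t x0) (i : ℤ) : xx s x0 i ∈ St P s i (i + t - 1) := by
  have h := (conj_mem_St (P := P) (s := s) (i := 0) (j := (t : ℤ) - 1) (k := i)
    (g := x0)).2 hX.mem
  have e1 : (0 : ℤ) + i = i := zero_add i
  have e2 : (t : ℤ) - 1 + i = i + t - 1 := by ring
  rw [e1, e2] at h
  exact h

theorem xx_mem' (hX : XData P s t x0) {i a b : ℤ} (h1 : i ≤ a) (h2 : b ≤ i + t - 1) :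
    xx s x0 i ∈ St P s a b :=
  St_mono h1 h2 (hX.xx_mem i)

theorem xx_not_left (hX : XData P s t x0) {i a j : ℤ} (ha : a + 1 ≤ i) (hj : i ≤ j + 1) :
    xx s x0 i ∉ St P s a j := by
  intro h
  have h1 := St_inter (P := P) (s := s) hj h (hX.xx_mem i)
  rw [hX.chain.St_bot (by omega), Subgroup.mem_bot] at h1
  exact hX.xx_ne_one i h1

theorem xx_not_right (hX : XData P s t x0) {i a b : ℤ} (ha : a ≤ i + t) (hb : i + t ≤ b) :
    xx s x0 i ∉ St P s a b := by
  intro h
  have h1 := St_inter (P := P) (s := s) (i := i) (j := i + t - 1) (i' := a) (j' := b)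
    (by omega) (hX.xx_mem i) h
  rw [hX.chain.St_bot (by omega), Subgroup.mem_bot] at h1
  exact hX.xx_ne_one i h1

theorem split_left (hX : XData P s t x0) {i j : ℤ} {g : G} (h1 : i + 1 ≤ j)
    (h2 : j ≤ i + t - 1) (hg : g ∈ St P s i j) :
    g ∈ St P s (i - 1) j ∨ xx s x0 i * g ∈ St P s (i - 1) j := by
  by_cases hgB : g ∈ St P s (i - 1) j
  · exact Or.inl hgB
  · right
    obtain ⟨e, he⟩ : ∃ e : ℕ, j + e = i + t - 1 := ⟨(i + t - 1 - j).toNat, by omega⟩
    have c1 : Nat.card (St P s i j) = 2 ^ (e + 1) :=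
      hX.chain.card_len i j (e + 1) h1 (by push_cast; omega)
    have c2 : Nat.card (St P s (i - 1) j) = 2 ^ e :=
      hX.chain.card_len (i - 1) j e (by omega) (by omega)
    exact mul_mem_of_index_two (St_mono (by omega) le_rfl) (by rw [c1, c2, pow_succ]; ring)
      (hX.xx_mem' le_rfl h2) hg (hX.xx_not_left (by omega) (by omega)) hgB

theorem split_right (hX : XData P s t x0) {i j : ℤ} {g : G} (h1 : i + 1 ≤ j)
    (h2 : j ≤ i + t - 1) (hg : g ∈ St P s i j) :
    g ∈ St P s i (j + 1) ∨ xx s x0 (j - t + 1) * g ∈ St P s i (j + 1) := by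
  by_cases hgB : g ∈ St P s i (j + 1)
  · exact Or.inl hgB
  · right
    obtain ⟨e, he⟩ : ∃ e : ℕ, j + e = i + t - 1 := ⟨(i + t - 1 - j).toNat, by omega⟩
    have c1 : Nat.card (St P s i j) = 2 ^ (e + 1) :=
      hX.chain.card_len i j (e + 1) h1 (by push_cast; omega)
    have c2 : Nat.card (St P s i (j + 1)) = 2 ^ e :=
      hX.chain.card_len i (j + 1) e (by omega) (by omega)
    exact mul_mem_of_index_two (St_mono le_rfl (by omega)) (by rw [c1, c2, pow_succ]; ring)
      (hX.xx_mem' (by omega) (by omega)) hg (hX.xx_not_right (by omega) (by omega)) hgB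

theorem gen_aux (hX : XData P s t x0) (i : ℤ) (n : ℕ) (hn : n + 1 ≤ t) :
    St P s (i - 1 + n) (i + t - 1) ≤ XX s x0 i (i - 1 + n) := by
  induction n with
  | zero =>
    rw [hX.chain.St_bot (by push_cast; omega)]
    exact bot_le
  | succ n ih =>
    intro g hg
    have ih' := ih (by omega)
    have hmono : XX s x0 i (i - 1 + n) ≤ XX s x0 i (i - 1 + (n + 1 : ℕ)) :=
      XX_mono s x0 le_rfl (by push_cast; omega)
    have hxm : xx s x0 (i - 1 + (n + 1 : ℕ)) ∈ XX s x0 i (i - 1 + (n + 1 : ℕ)) :=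
      xx_mem_XX s x0 (by push_cast; omega) le_rfl
    have hsub : St P s (i - 1 + (n + 1 : ℕ) - 1) (i + t - 1) ≤ St P s (i - 1 + n) (i + t - 1) :=
      St_mono (by push_cast; omega) le_rfl
    rcases hX.split_left (i := i - 1 + (n + 1 : ℕ)) (j := i + t - 1) (by push_cast; omega)
      (by push_cast; omega) hg with h | h
    · exact hmono (ih' (hsub h))
    · have h3 := Subgroup.mul_mem _ hxm (hmono (ih' (hsub h)))
      rw [← mul_assoc, hX.xx_mul_self, one_mul] at h3
      exact h3

/-- `St a b` is generated by the `x_k` it contains. -/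
theorem gen (hX : XData P s t x0) {a b : ℤ} (h1 : a + 1 ≤ b) (h2 : b ≤ a + t) :
    St P s a b ≤ XX s x0 (b - t + 1) a := by
  obtain ⟨n, hn⟩ : ∃ n : ℕ, (n : ℤ) = a - (b - t + 1) + 1 := ⟨(a - (b - t + 1) + 1).toNat, by omega⟩
  have h := hX.gen_aux (b - t + 1) n (by omega)
  have e1 : b - t + 1 - 1 + (n : ℤ) = a := by omega
  have e2 : b - t + 1 + t - 1 = b := by ring
  rw [e1, e2] at h
  exact h

theorem vertex_le_sup (hX : XData P s t x0) (m : ℤ) :
    St P s m m ≤ St P s (m - 1) m ⊔ St P s m (m + 1) := by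
  have hC := hX.chain
  obtain ⟨e, he⟩ : ∃ e, t = e + 2 := ⟨t - 2, by have := hC.two_le; omega⟩
  have c0 : Nat.card (St P s m m) = 3 * 2 ^ (e + 1) := by
    rw [hC.card_zero m]; congr 2; omega
  have c1 : Nat.card (St P s (m - 1) m) = 2 ^ (e + 1) :=
    hC.card_len (m - 1) m (e + 1) (by omega) (by push_cast; omega)
  have c2 : Nat.card (St P s m (m + 1)) = 2 ^ (e + 1) :=
    hC.card_len m (m + 1) (e + 1) (by omega) (by push_cast; omega)
  have c3 : Nat.card (St P s (m - 1) (m + 1)) = 2 ^ e :=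
    hC.card_len (m - 1) (m + 1) e (by omega) (by push_cast; omega)
  have hne : St P s (m - 1) m ≠ St P s m (m + 1) := by
    intro heq
    have hle : St P s (m - 1) m ≤ St P s (m - 1) (m + 1) := by
      intro g hg
      exact St_inter (by omega) hg (heq ▸ hg)
    have h7 := Nat.le_of_dvd Nat.card_pos (Subgroup.card_dvd_of_le hle)
    rw [c1, c3, pow_succ] at h7
    have : 0 < 2 ^ e := by positivity
    omega
  exact le_sup_of_prime_index (St_mono (by omega) le_rfl) (St_mono le_rfl (by omega)) hne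
    (by rw [c1, c2]) Nat.prime_three (by rw [c0, c1])

theorem K_normal (hX : XData P s t x0) {m a b : ℤ} (ha : a = m - 1) (hb : b = m + 1) :
    St P s m m ≤ Subgroup.normalizer (St P s a b : Set G) := by
  subst ha hb
  have hC := hX.chain
  obtain ⟨e, he⟩ : ∃ e, t = e + 2 := ⟨t - 2, by have := hC.two_le; omega⟩
  have c1 : Nat.card (St P s (m - 1) m) = 2 ^ (e + 1) :=
    hC.card_len (m - 1) m (e + 1) (by omega) (by push_cast; omega)
  have c2 : Nat.card (St P s m (m + 1)) = 2 ^ (e + 1) :=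
    hC.card_len m (m + 1) (e + 1) (by omega) (by push_cast; omega)
  have c3 : Nat.card (St P s (m - 1) (m + 1)) = 2 ^ e :=
    hC.card_len (m - 1) (m + 1) e (by omega) (by push_cast; omega)
  refine (hX.vertex_le_sup m).trans (sup_le ?_ ?_)
  · exact le_normalizer_of_index_two (St_mono le_rfl (by omega)) (by rw [c1, c3, pow_succ]; ring)
  · exact le_normalizer_of_index_two (St_mono (by omega) le_rfl) (by rw [c2, c3, pow_succ]; ring)

theorem vertex_gen (hX : XData P s t x0) (m : ℤ) :
    St P s m m ≤ XX s x0 (m - t + 1) m := by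
  have hC := hX.chain
  have ht := hC.two_le
  refine (hX.vertex_le_sup m).trans (sup_le ?_ ?_)
  · exact (hX.gen (a := m - 1) (b := m) (by omega) (by omega)).trans
      (XX_mono s x0 le_rfl (by omega))
  · exact (hX.gen (a := m) (b := m + 1) (by omega) (by omega)).trans
      (XX_mono s x0 (by omega) le_rfl)

end XData

/-- context: `lam` is the least distance at which the involutions do not commute. -/
structure Ctx (P : Subgroup G) (s : G) (t : ℕ) (x0 : G) (lam : ℕ) : Prop where
  xd : XData P s t x0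
  one_le : 1 ≤ lam
  le : lam + 1 ≤ t
  comm0 : ∀ d : ℕ, d < lam → Commute (xx s x0 0) (xx s x0 d)
  ncomm0 : ¬ Commute (xx s x0 0) (xx s x0 lam)

theorem XData.exists_ctx [Finite G] {x0 : G} (hX : XData P s t x0) :
    ∃ lam, Ctx P s t x0 lam := by
  classical
  have hC := hX.chain
  have ht := hC.two_le
  have hex : ∃ d : ℕ, d + 1 ≤ t ∧ ¬ Commute (xx s x0 0) (xx s x0 d) := by
    by_contra hcon
    push Not at hcon
    have hcomm : ∀ i j : ℤ, i ≤ j → j < i + t → Commute (xx s x0 i) (xx s x0 j) := by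
      intro i j h1 h2
      obtain ⟨d, hd⟩ : ∃ d : ℕ, j = d + i := ⟨(j - i).toNat, by omega⟩
      have h := (commute_xx_shift s x0 0 d i).2 (hcon d (by omega))
      rw [zero_add, ← hd] at h
      exact h
    have hcomm' : ∀ i j : ℤ, i < j + t → j < i + t → Commute (xx s x0 i) (xx s x0 j) := by
      intro i j h1 h2
      rcases le_total i j with h | h
      · exact hcomm i j h h2
      · exact (hcomm j i h h1).symm
    have hsq : ∀ g ∈ St P s 0 0, g * g = 1 := by
      intro g hg
      have hg' := hX.vertex_gen 0 hg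
      refine sq_of_comm ?_ ?_ g hg'
      · rintro _ ⟨k, hk1, hk2, rfl⟩ _ ⟨l, hl1, hl2, rfl⟩
        exact hcomm' k l (by omega) (by omega)
      · rintro _ ⟨k, hk1, hk2, rfl⟩
        exact hX.xx_mul_self k
    have h3 : 3 ∣ Nat.card (St P s 0 0) := by
      rw [hC.card_zero 0]; exact dvd_mul_right 3 _
    have : Fact (Nat.Prime 3) := ⟨Nat.prime_three⟩
    obtain ⟨g, hg⟩ := exists_prime_orderOf_dvd_card' (G := St P s 0 0) 3 h3
    have hg2 : (g : G) * g = 1 := hsq g g.2
    have hg2' : g ^ 2 = 1 := by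
      apply Subtype.ext
      rw [pow_two]
      exact hg2
    have := orderOf_dvd_of_pow_eq_one hg2'
    rw [hg] at this
    norm_num at this
  refine ⟨Nat.find hex, hX, ?_, (Nat.find_spec hex).1, ?_, (Nat.find_spec hex).2⟩
  · by_contra h0
    have h1 : Nat.find hex = 0 := by omega
    have h2 := (Nat.find_spec hex).2
    rw [h1] at h2
    exact h2 (by simp)
  · intro d hd
    have h1 := Nat.find_min hex hd
    push Not at h1
    exact h1 (by have := (Nat.find_spec hex).1; omega)

namespace Ctx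

variable [Finite G] {x0 : G} {lam : ℕ}

omit [Finite G] in
theorem comm (hc : Ctx P s t x0 lam) (i j : ℤ) (h1 : i < j + lam) (h2 : j < i + lam) :
    Commute (xx s x0 i) (xx s x0 j) := by
  have hcomm : ∀ i j : ℤ, i ≤ j → j < i + lam → Commute (xx s x0 i) (xx s x0 j) := by
    intro i j h1 h2
    obtain ⟨d, hd⟩ : ∃ d : ℕ, j = d + i := ⟨(j - i).toNat, by omega⟩
    have h := (commute_xx_shift s x0 0 d i).2 (hc.comm0 d (by omega))
    rw [zero_add, ← hd] at h
    exact h
  rcases le_total i j with h | h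
  · exact hcomm i j h h2
  · exact (hcomm j i h h1).symm

omit [Finite G] in
theorem ncomm (hc : Ctx P s t x0 lam) {i j : ℤ} (h : j = i + lam) :
    ¬ Commute (xx s x0 i) (xx s x0 j) := by
  intro hcon
  apply hc.ncomm0
  have e1 : i = 0 + i := (zero_add i).symm
  have e2 : j = lam + i := by omega
  rw [e1, e2] at hcon
  exact (commute_xx_shift s x0 0 lam i).1 hcon

omit [Finite G] in
theorem ncomm' (hc : Ctx P s t x0 lam) {i j : ℤ} (h : i = j + lam) :
    ¬ Commute (xx s x0 i) (xx s x0 j) :=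
  fun hcon => hc.ncomm h hcon.symm

/-- `x_k` commutes with `St a b` when it commutes with all its generators. -/
theorem comm_St (hc : Ctx P s t x0 lam) (k a b : ℤ) (h1 : a + 1 ≤ b) (h2 : b ≤ a + t)
    (h3 : a < k + lam) (h4 : k + t < b + lam + 1) {g : G} (hg : g ∈ St P s a b) :
    Commute (xx s x0 k) g :=
  commute_of_mem_XX (fun m hm1 hm2 => hc.comm k m (by omega) (by omega)) (hc.xd.gen h1 h2 hg)

theorem two_lam_ge (hc : Ctx P s t x0 lam) : t ≤ 2 * lam := by
  by_contra hlt
  push Not at hlt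
  have hX := hc.xd
  have hC := hX.chain
  have hl1 := hc.one_le
  have hcardY : Nat.card (St P s (2 * (lam : ℤ) - 1) ((t : ℤ) - 1)) = 2 ^ (2 * lam - 1 + 1) :=
    hC.card_len _ _ _ (by omega) (by omega)
  obtain ⟨ζ, hζY, hζ1, hζc⟩ := exists_central _ _ hcardY
  have hζx : ∀ k : ℤ, 0 ≤ k → k ≤ 2 * lam - 1 → Commute ζ (xx s x0 k) :=
    fun k h1 h2 => hζc _ (hX.xx_mem' (by omega) (by omega))
  have hA : ∀ n : ℕ, n ≤ lam → ζ ∈ St P s (2 * (lam : ℤ) - 1 - n) ((t : ℤ) - 1) := by
    intro n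
    induction n with
    | zero => intro _; simpa using hζY
    | succ n ih =>
      intro hn
      have h0 := ih (by omega)
      rcases hX.split_left (i := 2 * (lam : ℤ) - 1 - n) (j := (t : ℤ) - 1) (by omega)
        (by omega) h0 with h | h
      · exact St_mono (by push_cast; omega) le_rfl h
      · exfalso
        have hc1 : Commute (xx s x0 (2 * (lam : ℤ) - 1 - n - lam))
            (xx s x0 (2 * (lam : ℤ) - 1 - n) * ζ) :=
          hc.comm_St _ _ _ (by omega) (by omega) (by omega) (by omega) h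
        have hc2 : Commute (xx s x0 (2 * (lam : ℤ) - 1 - n - lam)) ζ :=
          (hζx _ (by omega) (by omega)).symm
        exact hc.ncomm (by omega) (commute_of_mul hc1 hc2)
  have hB : ∀ n : ℕ, n ≤ lam → ζ ∈ St P s (2 * (lam : ℤ) - 1) ((t : ℤ) - 1 + n) := by
    intro n
    induction n with
    | zero => intro _; simpa using hζY
    | succ n ih =>
      intro hn
      have h0 := ih (by omega)
      rcases hX.split_right (i := 2 * (lam : ℤ) - 1) (j := (t : ℤ) - 1 + n) (by omega)
        (by omega) h0 with h | h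
      · exact St_mono le_rfl (by push_cast; omega) h
      · exfalso
        have hc1 : Commute (xx s x0 ((n : ℤ) + lam))
            (xx s x0 ((t : ℤ) - 1 + n - t + 1) * ζ) :=
          hc.comm_St _ _ _ (by omega) (by omega) (by omega) (by omega) h
        have hc2 : Commute (xx s x0 ((n : ℤ) + lam)) ζ :=
          (hζx _ (by omega) (by omega)).symm
        exact hc.ncomm' (by omega) (commute_of_mul hc1 hc2)
  have h1 := hA lam le_rfl
  have h2 := hB lam le_rfl
  have h3 := St_inter (P := P) (s := s) (by omega) h1 h2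
  rw [hC.St_bot (by omega), Subgroup.mem_bot] at h3
  exact hζ1 h3

theorem two_lam_le (hc : Ctx P s t x0 lam) : 2 * lam ≤ t + 1 := by
  by_contra hlt
  push Not at hlt
  have hX := hc.xd
  have hC := hX.chain
  have hl1 := hc.one_le
  have hl2 := hc.le
  obtain ⟨k, hk⟩ : ∃ k : ℤ, k = (t : ℤ) - lam + 1 := ⟨_, rfl⟩
  have hcomm : ∀ i : ℤ, 0 ≤ i → i ≤ t → Commute (xx s x0 k) (xx s x0 i) :=
    fun i h1 h2 => hc.comm _ _ (by omega) (by omega)
  have h1 : St P s ((t : ℤ) - 1) ((t : ℤ) - 1) ≤ Subgroup.centralizer {xx s x0 k} := by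
    intro g hg
    have hg' := hX.vertex_gen ((t : ℤ) - 1) hg
    have hcg : Commute (xx s x0 k) g :=
      commute_of_mem_XX (fun i hi1 hi2 => hcomm i (by omega) (by omega)) hg'
    rw [Subgroup.mem_centralizer_iff]
    intro z hz
    rw [Set.mem_singleton_iff.1 hz]
    exact hcg.eq
  have h2 : St P s ((t : ℤ) - 1 + 1) ((t : ℤ) - 1 + 1) ≤ Subgroup.centralizer {xx s x0 k} := by
    intro g hg
    have hg' := hX.vertex_gen ((t : ℤ) - 1 + 1) hg
    have hcg : Commute (xx s x0 k) g :=
      commute_of_mem_XX (fun i hi1 hi2 => hcomm i (by omega) (by omega)) hg'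
    rw [Subgroup.mem_centralizer_iff]
    intro z hz
    rw [Set.mem_singleton_iff.1 hz]
    exact hcg.eq
  have htop : Subgroup.centralizer {xx s x0 k} = ⊤ :=
    top_unique (hC.top_shift ((t : ℤ) - 1) ▸ sup_le h1 h2)
  have hcen : ∀ g : G, g * xx s x0 k = xx s x0 k * g := by
    intro g
    have hg : g ∈ Subgroup.centralizer {xx s x0 k} := htop ▸ Subgroup.mem_top g
    exact ((Subgroup.mem_centralizer_iff.1 hg) _ rfl).symm
  have hN : (Subgroup.zpowers (xx s x0 k)).Normal := by
    refine ⟨fun n hn g => ?_⟩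
    obtain ⟨m, rfl⟩ := Subgroup.mem_zpowers_iff.1 hn
    have hcm : Commute g (xx s x0 k ^ m) := Commute.zpow_right (hcen g) m
    have e : g * xx s x0 k ^ m * g⁻¹ = xx s x0 k ^ m := by
      rw [hcm.eq, mul_inv_cancel_right]
    rw [e]; exact hn
  have hle : Subgroup.zpowers (xx s x0 k) ≤ St P s ((t : ℤ) - 1) ((t : ℤ) - 1) := by
    rw [Subgroup.zpowers_le]
    exact hX.xx_mem' (by omega) (by omega)
  have hbot := hC.core_shift _ _ hN hle
  have hm : xx s x0 k ∈ Subgroup.zpowers (xx s x0 k) := Subgroup.mem_zpowers _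
  rw [hbot, Subgroup.mem_bot] at hm
  exact hX.xx_ne_one k hm

end Ctx

/-- `z` is a central element of the subgroup `K`. -/
def IsCen (K : Subgroup G) (z : G) : Prop := z ∈ K ∧ ∀ y ∈ K, Commute z y

theorem IsCen.mul {K : Subgroup G} {z w : G} (hz : IsCen K z) (hw : IsCen K w) :
    IsCen K (z * w) :=
  ⟨K.mul_mem hz.1 hw.1, fun y hy => (hz.2 y hy).mul_left (hw.2 y hy)⟩

theorem IsCen.conj {K : Subgroup G} {z p : G} (hz : IsCen K z)
    (hp : p ∈ Subgroup.normalizer (K : Set G)) : IsCen K (p * z * p⁻¹) := by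
  rw [Subgroup.mem_normalizer_iff] at hp
  refine ⟨(hp z).1 hz.1, fun y hy => ?_⟩
  have hy' : p⁻¹ * y * p ∈ K := by
    rw [hp]
    have e : p * (p⁻¹ * y * p) * p⁻¹ = y := by group
    rw [e]; exact hy
  have h1 := hz.2 _ hy'
  have h2 := (Commute.conj_iff p).2 h1
  have e : p * (p⁻¹ * y * p) * p⁻¹ = y := by group
  rw [e] at h2
  exact h2

namespace Ctx

variable [Finite G] {x0 : G} {lam : ℕ}

theorem cen_le (hc : Ctx P s t x0 lam) (ht : 5 ≤ t) {ζ : G}
    (hζ : IsCen (St P s ((t : ℤ) - 2) t) ζ) :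
    ζ ∈ St P s lam (2 * (t : ℤ) - 2 - lam) := by
  have hX := hc.xd
  have hC := hX.chain
  have hl1 := hc.one_le
  have hl2 := hc.le
  have hl3 := hc.two_lam_ge
  have hl4 := hc.two_lam_le
  have hζx : ∀ k : ℤ, 1 ≤ k → k ≤ t - 2 → Commute ζ (xx s x0 k) :=
    fun k h1 h2 => hζ.2 _ (hX.xx_mem' (by omega) (by omega))
  have hA : ∀ n : ℕ, n + lam + 2 ≤ t → ζ ∈ St P s ((t : ℤ) - 2 - n) t := by
    intro n
    induction n with
    | zero => intro _; simpa using hζ.1
    | succ n ih =>
      intro hn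
      have h0 := ih (by omega)
      rcases hX.split_left (i := (t : ℤ) - 2 - n) (j := (t : ℤ)) (by omega)
        (by omega) h0 with h | h
      · exact St_mono (by push_cast; omega) le_rfl h
      · exfalso
        have hc1 : Commute (xx s x0 ((t : ℤ) - 2 - n - lam))
            (xx s x0 ((t : ℤ) - 2 - n) * ζ) :=
          hc.comm_St _ _ _ (by omega) (by omega) (by omega) (by omega) h
        have hc2 : Commute (xx s x0 ((t : ℤ) - 2 - n - lam)) ζ :=
          (hζx _ (by omega) (by omega)).symm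
        exact hc.ncomm (by omega) (commute_of_mul hc1 hc2)
  have hB : ∀ n : ℕ, n + lam + 2 ≤ t → ζ ∈ St P s ((t : ℤ) - 2) ((t : ℤ) + n) := by
    intro n
    induction n with
    | zero => intro _; simpa using hζ.1
    | succ n ih =>
      intro hn
      have h0 := ih (by omega)
      rcases hX.split_right (i := (t : ℤ) - 2) (j := (t : ℤ) + n) (by omega)
        (by omega) h0 with h | h
      · exact St_mono le_rfl (by push_cast; omega) h
      · exfalso
        have hc1 : Commute (xx s x0 ((n : ℤ) + 1 + lam))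
            (xx s x0 ((t : ℤ) + n - t + 1) * ζ) :=
          hc.comm_St _ _ _ (by omega) (by omega) (by omega) (by omega) h
        have hc2 : Commute (xx s x0 ((n : ℤ) + 1 + lam)) ζ :=
          (hζx _ (by omega) (by omega)).symm
        exact hc.ncomm' (by omega) (commute_of_mul hc1 hc2)
  have h1 := hA (t - 2 - lam) (by omega)
  have h2 := hB (t - 2 - lam) (by omega)
  have h1' : ζ ∈ St P s lam t := St_mono (by omega) le_rfl h1
  have h2' : ζ ∈ St P s ((t : ℤ) - 2) (2 * (t : ℤ) - 2 - lam) := St_mono le_rfl (by omega) h2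
  exact St_inter (P := P) (s := s) (by omega) h1' h2'

theorem c_mem (hc : Ctx P s t x0 lam) (ht : 5 ≤ t) :
    xx s x0 0 * xx s x0 lam * xx s x0 0 * xx s x0 lam ∈
      St P s (2 * (lam : ℤ) - t + 1) (2 * (t : ℤ) - 2 - lam) := by
  have hX := hc.xd
  have hC := hX.chain
  have hl1 := hc.one_le
  have hl2 := hc.le
  have hl3 := hc.two_lam_ge
  have hl4 := hc.two_lam_le
  have hn : St P s ((t : ℤ) - 1) ((t : ℤ) - 1) ≤
      Subgroup.normalizer (St P s ((t : ℤ) - 2) t : Set G) :=
    hX.K_normal (by ring) (by ring)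
  have hz1 : IsCen (St P s ((t : ℤ) - 2) t) (xx s x0 lam) :=
    ⟨hX.xx_mem' (by omega) (by omega),
      fun y hy => hc.comm_St _ _ _ (by omega) (by omega) (by omega) (by omega) hy⟩
  have hz2 : IsCen (St P s ((t : ℤ) - 2) t) (xx s x0 ((t : ℤ) - 1 - lam)) :=
    ⟨hX.xx_mem' (by omega) (by omega),
      fun y hy => hc.comm_St _ _ _ (by omega) (by omega) (by omega) (by omega) hy⟩
  have hx0 : xx s x0 0 ∈ St P s ((t : ℤ) - 1) ((t : ℤ) - 1) :=
    hX.xx_mem' (by omega) (by omega)
  have hxt : xx s x0 ((t : ℤ) - 1) ∈ St P s ((t : ℤ) - 1) ((t : ℤ) - 1) :=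
    hX.xx_mem' (by omega) (by omega)
  have hcz : IsCen (St P s ((t : ℤ) - 2) t)
      (xx s x0 0 * xx s x0 lam * xx s x0 0 * xx s x0 lam) := by
    have h := (hz1.conj (hn hx0)).mul hz1
    rw [hX.xx_inv] at h
    exact h
  have hcz' : IsCen (St P s ((t : ℤ) - 2) t)
      (xx s x0 ((t : ℤ) - 1) * xx s x0 ((t : ℤ) - 1 - lam) * xx s x0 ((t : ℤ) - 1)
        * xx s x0 ((t : ℤ) - 1 - lam)) := by
    have h := (hz2.conj (hn hxt)).mul hz2
    rw [hX.xx_inv] at h
    exact h
  have hm1 := hc.cen_le ht hcz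
  have hm2 := hc.cen_le ht hcz'
  have e1 : xx s x0 ((t : ℤ) - 1) = s ^ ((t : ℤ) - 1 - lam) * xx s x0 lam
      * s ^ (-((t : ℤ) - 1 - lam)) := by
    rw [xx_shift]; exact xx_congr s x0 (by ring)
  have e2 : xx s x0 ((t : ℤ) - 1 - lam) = s ^ ((t : ℤ) - 1 - lam) * xx s x0 0
      * s ^ (-((t : ℤ) - 1 - lam)) := by
    rw [xx_shift]; exact xx_congr s x0 (by ring)
  have e3 : xx s x0 ((t : ℤ) - 1) * xx s x0 ((t : ℤ) - 1 - lam) * xx s x0 ((t : ℤ) - 1)
        * xx s x0 ((t : ℤ) - 1 - lam) = s ^ ((t : ℤ) - 1 - lam)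
        * (xx s x0 lam * xx s x0 0 * xx s x0 lam * xx s x0 0)
        * s ^ (-((t : ℤ) - 1 - lam)) := by
    rw [e1, e2]; group
  rw [e3] at hm2
  have hm3 : s ^ ((t : ℤ) - 1 - lam) * (xx s x0 lam * xx s x0 0 * xx s x0 lam * xx s x0 0)
        * s ^ (-((t : ℤ) - 1 - lam)) ∈
      St P s (2 * (lam : ℤ) - t + 1 + ((t : ℤ) - 1 - lam)) ((t : ℤ) - 1 + ((t : ℤ) - 1 - lam)) :=
    St_mono (by omega) (by omega) hm2
  have hm4 := (conj_mem_St (P := P) (s := s)).1 hm3
  have hm5 := Subgroup.inv_mem _ hm4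
  have e4 : (xx s x0 lam * xx s x0 0 * xx s x0 lam * xx s x0 0)⁻¹
      = xx s x0 0 * xx s x0 lam * xx s x0 0 * xx s x0 lam := by
    simp only [mul_inv_rev, hX.xx_inv, mul_assoc]
  rw [e4] at hm5
  exact St_inter (P := P) (s := s) (by omega) hm5 hm1

theorem two_t_le (hc : Ctx P s t x0 lam) (ht : 5 ≤ t) : 2 * t ≤ 3 * lam + 2 := by
  by_contra hlt
  push Not at hlt
  have hX := hc.xd
  have hC := hX.chain
  have h := hc.c_mem ht
  rw [hC.St_bot (by omega), Subgroup.mem_bot] at h
  apply hc.ncomm0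
  have h1 : xx s x0 0 * xx s x0 lam = (xx s x0 0 * xx s x0 lam)⁻¹ := by
    rw [eq_inv_iff_mul_eq_one, ← h]; group
  rw [mul_inv_rev, hX.xx_inv, hX.xx_inv] at h1
  exact h1

end Ctx

theorem rel_left {a b c : G} (hb : b * b = 1) (h : a * b * a * b = c) : a * b * a = c * b := by
  rw [← h, mul_assoc (a * b * a), hb, mul_one]

theorem rel_right {a b c : G} (ha : a * a = 1) (h : a * b * a * b = c) : b * a * b = a * c := by
  rw [← h]
  simp only [← mul_assoc]
  rw [ha, one_mul]

theorem conj_sq {a b : G} (ha : a * a = 1) (hb : b * b = 1) : (a * b * a) * (a * b * a) = 1 := by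
  calc (a * b * a) * (a * b * a) = a * b * (a * a) * b * a := by group
    _ = a * (b * b) * a := by rw [ha]; group
    _ = 1 := by rw [hb, mul_one, ha]

theorem sq_contra {a b v : G} (hv : v * v = 1) (hca : Commute a v) (hcb : Commute b v) :
    (a * v * b) * (a * v * b) = a * b * a * b := by
  calc (a * v * b) * (a * v * b) = a * (v * b) * a * v * b := by group
    _ = a * (b * v) * a * v * b := by rw [← hcb.eq]
    _ = a * b * (v * a) * v * b := by group
    _ = a * b * (a * v) * v * b := by rw [← hca.eq]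
    _ = a * b * a * (v * v) * b := by group
    _ = a * b * a * b := by rw [hv, mul_one]

theorem w_eq {a p q : G} (ha : a * a = 1) (hq : q * q = 1) :
    p * q * p = a * (a * (p * q * p * q)) * q := by
  rw [← mul_assoc a a, ha, one_mul, mul_assoc (p * q * p) q q, hq, mul_one]

namespace Ctx

variable [Finite G] {x0 : G} {lam : ℕ}

theorem not_seven (hc : Ctx P s t x0 lam) (ht : t = 7) (hl : lam = 4) : False := by
  have hX := hc.xd
  have hC := hX.chain
  have hsq := hX.xx_mul_self
  have hinv := hX.xx_inv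
  have hne1 := hX.xx_ne_one
  have hcomm : ∀ i j : ℤ, i < j + 4 → j < i + 4 → Commute (xx s x0 i) (xx s x0 j) :=
    fun i j h1 h2 => hc.comm i j (by omega) (by omega)
  have hncomm : ∀ i : ℤ, ¬ Commute (xx s x0 i) (xx s x0 (i + 4)) :=
    fun i => hc.ncomm (by omega)
  have hmem : ∀ i a b : ℤ, i ≤ a → b ≤ i + 6 → xx s x0 i ∈ St P s a b :=
    fun i a b h1 h2 => hX.xx_mem' h1 (by omega)
  have hcard : ∀ (a b : ℤ) (e : ℕ), a + 1 ≤ b → b - a + e = 7 →
      Nat.card (St P s a b) = 2 ^ e :=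
    fun a b e h1 h2 => hC.card_len a b e h1 (by omega)
  -- the commutator relation
  have hc0 : xx s x0 0 * xx s x0 4 * xx s x0 0 * xx s x0 4 = xx s x0 2 := by
    have h := hc.c_mem (by omega)
    have e4 : xx s x0 (lam : ℤ) = xx s x0 4 := xx_congr s x0 (by omega)
    rw [e4] at h
    have h' : xx s x0 0 * xx s x0 4 * xx s x0 0 * xx s x0 4 ∈ St P s 2 8 :=
      St_mono (by omega) (by omega) h
    have hne : xx s x0 0 * xx s x0 4 * xx s x0 0 * xx s x0 4 ≠ 1 := by
      intro h1
      apply hncomm 0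
      have h2 : xx s x0 0 * xx s x0 4 = (xx s x0 0 * xx s x0 4)⁻¹ := by
        rw [eq_inv_iff_mul_eq_one, ← h1]; group
      rw [mul_inv_rev, hinv, hinv] at h2
      rw [zero_add]; exact h2
    have h2 := eq_of_card_two _ (by simpa using hcard 2 8 1 (by omega) (by omega)) h'
      (hmem 2 2 8 (by omega) (by omega)) hne (hne1 2)
    rw [← hinv 2]
    exact eq_inv_of_mul_eq_one_left h2
  have hrel : ∀ i j k : ℤ, j = i + 4 → k = i + 2 →
      xx s x0 i * xx s x0 j * xx s x0 i * xx s x0 j = xx s x0 k := by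
    intro i j k hj hk
    subst hj hk
    have e0 : xx s x0 i = s ^ i * xx s x0 0 * s ^ (-i) := by rw [xx_shift, zero_add]
    have e4 : xx s x0 (i + 4) = s ^ i * xx s x0 4 * s ^ (-i) := by rw [xx_shift, add_comm]
    have e2 : xx s x0 (i + 2) = s ^ i * xx s x0 2 * s ^ (-i) := by rw [xx_shift, add_comm]
    rw [e0, e4, e2, ← hc0]; group
  -- the x_k normalize N = St 5 8 = ⟨x_2, x_3, x_4, x_5⟩
  have hN : ∀ k l : ℤ, 0 ≤ k → k ≤ 7 → 2 ≤ l → l ≤ 5 →
      xx s x0 k * xx s x0 l * (xx s x0 k)⁻¹ ∈ St P s 5 8 := by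
    intro k l hk0 hk7 hl2 hl5
    have hxl : xx s x0 l ∈ St P s 5 8 := hmem l 5 8 (by omega) (by omega)
    by_cases hkl : l < k + 4 ∧ k < l + 4
    · have hcm := hcomm k l (by omega) (by omega)
      have e : xx s x0 k * xx s x0 l * (xx s x0 k)⁻¹ = xx s x0 l := by
        rw [hcm.eq, mul_inv_cancel_right]
      rw [e]; exact hxl
    · rw [hinv]
      have hcases : (k = 0 ∧ l = 4) ∨ (k = 1 ∧ l = 5) ∨ (k = 6 ∧ l = 2) ∨ (k = 7 ∧ l = 3) ∨
          (k = 0 ∧ l = 5) ∨ (k = 7 ∧ l = 2) := by omega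
      rcases hcases with ⟨rfl, rfl⟩ | ⟨rfl, rfl⟩ | ⟨rfl, rfl⟩ | ⟨rfl, rfl⟩ | ⟨rfl, rfl⟩ |
        ⟨rfl, rfl⟩
      · rw [rel_left (hsq 4) (hrel 0 4 2 (by norm_num) (by norm_num))]
        exact Subgroup.mul_mem _ (hmem 2 5 8 (by omega) (by omega)) hxl
      · rw [rel_left (hsq 5) (hrel 1 5 3 (by norm_num) (by norm_num))]
        exact Subgroup.mul_mem _ (hmem 3 5 8 (by omega) (by omega)) hxl
      · rw [rel_right (hsq 2) (hrel 2 6 4 (by norm_num) (by norm_num))]
        exact Subgroup.mul_mem _ hxl (hmem 4 5 8 (by omega) (by omega))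
      · rw [rel_right (hsq 3) (hrel 3 7 5 (by norm_num) (by norm_num))]
        exact Subgroup.mul_mem _ hxl (hmem 5 5 8 (by omega) (by omega))
      · -- (0,5)
        have hx0_46 : xx s x0 0 ∈ St P s 4 6 := hmem 0 4 6 (by omega) (by omega)
        have hx5_57 : xx s x0 5 ∈ St P s 5 7 := hmem 5 5 7 (by omega) (by omega)
        have hx0_56 : xx s x0 0 ∈ St P s 5 6 := hmem 0 5 6 (by omega) (by omega)
        have hx5_56 : xx s x0 5 ∈ St P s 5 6 := hmem 5 5 6 (by omega) (by omega)
        have hn1 : St P s 5 6 ≤ Subgroup.normalizer (St P s 4 6 : Set G) :=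
          le_normalizer_of_index_two (St_mono (by omega) le_rfl)
            (by rw [hcard 5 6 6 (by omega) (by omega), hcard 4 6 5 (by omega) (by omega)]
                norm_num)
        have hn2 : St P s 5 6 ≤ Subgroup.normalizer (St P s 5 7 : Set G) :=
          le_normalizer_of_index_two (St_mono le_rfl (by omega))
            (by rw [hcard 5 6 6 (by omega) (by omega), hcard 5 7 5 (by omega) (by omega)]
                norm_num)
        have hv1 : xx s x0 0 * xx s x0 5 * xx s x0 0 * xx s x0 5 ∈ St P s 4 6 := by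
          have h := (Subgroup.mem_normalizer_iff.1 (hn1 hx5_56) _).1 hx0_46
          rw [hinv] at h
          have h2 := Subgroup.mul_mem _ hx0_46 h
          simpa [mul_assoc] using h2
        have hv2 : xx s x0 0 * xx s x0 5 * xx s x0 0 * xx s x0 5 ∈ St P s 5 7 := by
          have h := (Subgroup.mem_normalizer_iff.1 (hn2 hx0_56) _).1 hx5_57
          rw [hinv] at h
          exact Subgroup.mul_mem _ h hx5_57
        have hv : xx s x0 0 * xx s x0 5 * xx s x0 0 * xx s x0 5 ∈ St P s 4 7 :=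
          St_inter (by omega) hv1 hv2
        rcases hX.split_right (i := 4) (j := 7) (by omega) (by omega) hv with h | h
        · have h' : xx s x0 0 * xx s x0 5 * xx s x0 0 * xx s x0 5 ∈ St P s 5 8 :=
            St_mono (by omega) (by omega) h
          have h2 := Subgroup.mul_mem _ h' hxl
          rw [mul_assoc, hsq, mul_one] at h2
          exact h2
        · exfalso
          have e1 : xx s x0 ((7 : ℤ) - t + 1) = xx s x0 1 := xx_congr s x0 (by omega)
          rw [e1] at h
          obtain ⟨v0, hv0⟩ : ∃ v0, v0 = xx s x0 1 *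
              (xx s x0 0 * xx s x0 5 * xx s x0 0 * xx s x0 5) := ⟨_, rfl⟩
          rw [← hv0] at h
          have hv0g : v0 ∈ XX s x0 2 4 :=
            XX_mono s x0 (by omega) le_rfl (hX.gen (a := 4) (b := 7 + 1) (by omega) (by omega) h)
          have hv0sq : v0 * v0 = 1 := by
            refine sq_of_comm ?_ ?_ v0 hv0g
            · rintro _ ⟨k, hk1, hk2, rfl⟩ _ ⟨l, hl1, hl2, rfl⟩
              exact hcomm k l (by omega) (by omega)
            · rintro _ ⟨k, hk1, hk2, rfl⟩
              exact hsq k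
          have hc1 : Commute (xx s x0 1) v0 :=
            commute_of_mem_XX (fun m hm1 hm2 => hcomm 1 m (by omega) (by omega)) hv0g
          have hc5 : Commute (xx s x0 5) v0 :=
            commute_of_mem_XX (fun m hm1 hm2 => hcomm 5 m (by omega) (by omega)) hv0g
          have hw : xx s x0 0 * xx s x0 5 * xx s x0 0 = xx s x0 1 * v0 * xx s x0 5 := by
            rw [hv0]; exact w_eq (hsq 1) (hsq 5)
          have h3 := sq_contra hv0sq hc1 hc5
          rw [← hw, conj_sq (hsq 0) (hsq 5), hrel 1 5 3 (by norm_num) (by norm_num)] at h3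
          exact hne1 3 h3.symm
      · -- (7,2)
        have hx7_79 : xx s x0 7 ∈ St P s 7 9 := hmem 7 7 9 (by omega) (by omega)
        have hx2_68 : xx s x0 2 ∈ St P s 6 8 := hmem 2 6 8 (by omega) (by omega)
        have hx7_78 : xx s x0 7 ∈ St P s 7 8 := hmem 7 7 8 (by omega) (by omega)
        have hx2_78 : xx s x0 2 ∈ St P s 7 8 := hmem 2 7 8 (by omega) (by omega)
        have hn1 : St P s 7 8 ≤ Subgroup.normalizer (St P s 7 9 : Set G) :=
          le_normalizer_of_index_two (St_mono le_rfl (by omega))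
            (by rw [hcard 7 8 6 (by omega) (by omega), hcard 7 9 5 (by omega) (by omega)]
                norm_num)
        have hn2 : St P s 7 8 ≤ Subgroup.normalizer (St P s 6 8 : Set G) :=
          le_normalizer_of_index_two (St_mono (by omega) le_rfl)
            (by rw [hcard 7 8 6 (by omega) (by omega), hcard 6 8 5 (by omega) (by omega)]
                norm_num)
        have hv1 : xx s x0 7 * xx s x0 2 * xx s x0 7 * xx s x0 2 ∈ St P s 7 9 := by
          have h := (Subgroup.mem_normalizer_iff.1 (hn1 hx2_78) _).1 hx7_79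
          rw [hinv] at h
          have h2 := Subgroup.mul_mem _ hx7_79 h
          simpa [mul_assoc] using h2
        have hv2 : xx s x0 7 * xx s x0 2 * xx s x0 7 * xx s x0 2 ∈ St P s 6 8 := by
          have h := (Subgroup.mem_normalizer_iff.1 (hn2 hx7_78) _).1 hx2_68
          rw [hinv] at h
          exact Subgroup.mul_mem _ h hx2_68
        have hv : xx s x0 7 * xx s x0 2 * xx s x0 7 * xx s x0 2 ∈ St P s 6 9 :=
          St_inter (by omega) hv2 hv1
        rcases hX.split_left (i := 6) (j := 9) (by omega) (by omega) hv with h | h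
        · have h' : xx s x0 7 * xx s x0 2 * xx s x0 7 * xx s x0 2 ∈ St P s 5 8 :=
            St_mono (by omega) (by omega) h
          have h2 := Subgroup.mul_mem _ h' hxl
          rw [mul_assoc, hsq, mul_one] at h2
          exact h2
        · exfalso
          obtain ⟨v0, hv0⟩ : ∃ v0, v0 = xx s x0 6 *
              (xx s x0 7 * xx s x0 2 * xx s x0 7 * xx s x0 2) := ⟨_, rfl⟩
          rw [← hv0] at h
          have hv0g : v0 ∈ XX s x0 3 5 :=
            XX_mono s x0 (by omega) (by omega)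
              (hX.gen (a := 6 - 1) (b := 9) (by omega) (by omega) h)
          have hv0sq : v0 * v0 = 1 := by
            refine sq_of_comm ?_ ?_ v0 hv0g
            · rintro _ ⟨k, hk1, hk2, rfl⟩ _ ⟨l, hl1, hl2, rfl⟩
              exact hcomm k l (by omega) (by omega)
            · rintro _ ⟨k, hk1, hk2, rfl⟩
              exact hsq k
          have hc6 : Commute (xx s x0 6) v0 :=
            commute_of_mem_XX (fun m hm1 hm2 => hcomm 6 m (by omega) (by omega)) hv0g
          have hc2 : Commute (xx s x0 2) v0 :=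
            commute_of_mem_XX (fun m hm1 hm2 => hcomm 2 m (by omega) (by omega)) hv0g
          have hw : xx s x0 7 * xx s x0 2 * xx s x0 7 = xx s x0 6 * v0 * xx s x0 2 := by
            rw [hv0]; exact w_eq (hsq 6) (hsq 2)
          have h4 : xx s x0 6 * xx s x0 2 * xx s x0 6 * xx s x0 2 = xx s x0 4 := by
            rw [← hinv 4, ← hrel 2 6 4 (by norm_num) (by norm_num)]
            simp only [mul_inv_rev, hinv, mul_assoc]
          have h3 := sq_contra hv0sq hc6 hc2
          rw [← hw, conj_sq (hsq 7) (hsq 2), h4] at h3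
          exact hne1 4 h3.symm
  have hnorm : XX s x0 0 7 ≤ Subgroup.normalizer (St P s 5 8 : Set G) := by
    rw [XX, Subgroup.closure_le]
    rintro _ ⟨k, hk0, hk7, rfl⟩
    rw [SetLike.mem_coe, Subgroup.mem_normalizer_iff]
    have hk : ∀ g ∈ St P s 5 8, xx s x0 k * g * (xx s x0 k)⁻¹ ∈ St P s 5 8 := by
      intro g hg
      have hg' : g ∈ Subgroup.closure {g | ∃ k : ℤ, 2 ≤ k ∧ k ≤ 5 ∧ g = xx s x0 k} :=
        XX_mono s x0 (by omega) le_rfl (hX.gen (a := 5) (b := 8) (by omega) (by omega) hg)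
      refine conj_mem_closure (fun g' hg' => ?_) g hg'
      obtain ⟨l, hl2, hl5, rfl⟩ := hg'
      exact hN k l hk0 hk7 hl2 hl5
    intro g
    refine ⟨hk g, fun h => ?_⟩
    have h2 := hk _ h
    rwa [conj_conj_self (hsq k)] at h2
  have h66 : St P s 6 6 ≤ Subgroup.normalizer (St P s 5 8 : Set G) :=
    (hX.vertex_gen 6).trans ((XX_mono s x0 (by omega) (by omega)).trans hnorm)
  have h77 : St P s (6 + 1) (6 + 1) ≤ Subgroup.normalizer (St P s 5 8 : Set G) :=
    (hX.vertex_gen (6 + 1)).trans ((XX_mono s x0 (by omega) (by omega)).trans hnorm)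
  have htop : Subgroup.normalizer (St P s 5 8 : Set G) = ⊤ :=
    top_unique (hC.top_shift 6 ▸ sup_le h66 h77)
  have hbot := hC.core_shift 6 _ (Subgroup.normalizer_eq_top_iff.1 htop)
    (St_mono (by omega) (by omega))
  have hx2 : xx s x0 2 ∈ St P s 5 8 := hmem 2 5 8 (by omega) (by omega)
  rw [hbot, Subgroup.mem_bot] at hx2
  exact hne1 2 hx2

end Ctx

/-- **Tutte–Sims bound**: the chain has length at most five. -/
theorem Chain.le_five [Finite G] (hC : Chain P s t) : t ≤ 5 := by
  by_contra h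
  push Not at h
  obtain ⟨x0, hX⟩ := hC.exists_xdata
  obtain ⟨lam, hc⟩ := hX.exists_ctx
  have h1 := hc.two_lam_ge
  have h2 := hc.two_lam_le
  have h3 := hc.two_t_le (by omega)
  exact hc.not_seven (by omega) (by omega)

end chainB

end Cfsg.Agent.Lib.Helper89.Sims3
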